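import Cfsg.Agent.Lib.Extraspecial.Large
import Cfsg.Agent.Lib.Transfer.Fusion

/-!
# Index two subgroups of the centralizer of a large extraspecial involution: fusion
-/

namespace Cfsg.Lib.LXT

open Subgroup Cfsg.Lib.ES Cfsg.Lib.Transfer
open scoped commutatorElement

set_option linter.style.haveILetI false

variable {G : Type*} [Group G] [Finite G] {E K : Subgroup G} {z : G}

theorem not_dvd_index (h : Lg E z) (hE : IsExtraspecial 2 E) :
    ¬ 2 ∣ (centralizer ({z} : Set G)).index := by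
  haveI : Fact (Nat.Prime 2) := ⟨Nat.prime_two⟩
  obtain ⟨P, hP⟩ := h.toSy.isPGroup.exists_le_sylow
  refine not_dvd_index_of_sylow_le P ?_
  haveI : Nontrivial (P : Subgroup G) :=
    ⟨⟨⟨z, hP h.mem⟩, 1, fun e => h.toSy.ne_one (congrArg Subtype.val e)⟩⟩
  haveI := P.isPGroup'.center_nontrivial
  obtain ⟨c, hc⟩ := exists_ne (1 : center (P : Subgroup G))
  have h1 : ((c : (P : Subgroup G)) : G) ∈ centralizer (E : Set G) := fun e he =>
    congrArg Subtype.val (mem_center_iff.1 c.2 ⟨e, hP he⟩)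
  rw [h.centralizer_eq hE] at h1
  rcases h.toSy.mem_iff.1 h1 with h2 | h2
  · exact absurd (Subtype.ext (Subtype.ext h2)) hc
  · intro x hx
    rw [mem_centralizer_singleton_iff, ← h2]
    exact congrArg Subtype.val (mem_center_iff.1 c.2 ⟨x, hx⟩)

omit [Finite G] in
theorem mem_cen_conj {g x : G} :
    x ∈ centralizer ({g * z * g⁻¹} : Set G) ↔ g⁻¹ * x * g ∈ centralizer ({z} : Set G) := by
  rw [← map_conj_centralizer_singleton, mem_conj]

omit [Finite G] in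
theorem mul_mem_conj_iff (hKi : K.relIndex (centralizer ({z} : Set G)) = 2) {g a b : G}
    (ha : a ∈ centralizer ({g * z * g⁻¹} : Set G)) (hb : b ∈ centralizer ({g * z * g⁻¹} : Set G)) :
    a * b ∈ g ⋆ K ↔ (a ∈ g ⋆ K ↔ b ∈ g ⋆ K) := by
  rw [mem_conj, mem_conj, mem_conj, show g⁻¹ * (a * b) * g = (g⁻¹ * a * g) * (g⁻¹ * b * g) by group]
  exact mul_mem_iff_of_index_two hKi (a := ⟨_, mem_cen_conj.1 ha⟩) (b := ⟨_, mem_cen_conj.1 hb⟩)

omit [Finite G] in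
theorem conj_mem_conj_iff (hKi : K.relIndex (centralizer ({z} : Set G)) = 2) {g a b : G}
    (ha : a ∈ centralizer ({g * z * g⁻¹} : Set G)) (hb : b ∈ centralizer ({g * z * g⁻¹} : Set G)) :
    a * b * a⁻¹ ∈ g ⋆ K ↔ b ∈ g ⋆ K := by
  rw [mul_mem_conj_iff hKi (mul_mem ha hb) (inv_mem ha), mul_mem_conj_iff hKi ha hb, inv_mem_iff]
  tauto

/-- If `E^g ∩ C(z) ≤ K` for all conjugates `z^g ≠ z` commuting with `z`, the sign map is
independent of the conjugate. -/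
theorem sign_eq (h : Lg E z) (hE : IsExtraspecial 2 E) (hKH : K ≤ centralizer ({z} : Set G))
    (hKi : K.relIndex (centralizer ({z} : Set G)) = 2)
    (hyp : ∀ g : G, g * z * g⁻¹ ≠ z → g * z * g⁻¹ ∈ centralizer ({z} : Set G) →
      ∀ b ∈ g ⋆ E, b ∈ centralizer ({z} : Set G) → b ∈ K) (n : ℕ) :
    ∀ T : Subgroup G, IsPGroup 2 T → Nat.card G - Nat.card T = n → ∀ g g' : G,
      T ≤ centralizer ({g * z * g⁻¹} : Set G) → T ≤ centralizer ({g' * z * g'⁻¹} : Set G) →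
      ∀ t ∈ T, (t ∈ g ⋆ K ↔ t ∈ g' ⋆ K) := by
  haveI : Fact (Nat.Prime 2) := ⟨Nat.prime_two⟩
  have hodd := not_dvd_index h hE
  -- equal points give equal subgroups
  have hsame : ∀ g g' : G, g * z * g⁻¹ = g' * z * g'⁻¹ →
      ∀ t ∈ centralizer ({g * z * g⁻¹} : Set G), (t ∈ g ⋆ K ↔ t ∈ g' ⋆ K) := by
    intro g g' e t ht
    have h1 : g' * g⁻¹ ∈ centralizer ({g * z * g⁻¹} : Set G) := by
      rw [mem_centralizer_singleton_iff]
      calc g' * g⁻¹ * (g * z * g⁻¹) = g' * z * g'⁻¹ * (g' * g⁻¹) := by group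
        _ = _ := by rw [← e]
    rw [← conj_mem_conj_iff hKi (inv_mem h1) ht, mem_conj, mem_conj]
    have : g⁻¹ * ((g' * g⁻¹)⁻¹ * t * (g' * g⁻¹)⁻¹⁻¹) * g = g'⁻¹ * t * g' := by group
    rw [this]
  induction n using Nat.strong_induction_on with
  | _ n ih =>
  intro T hT hn
  have ih' : ∀ T' : Subgroup G, IsPGroup 2 T' → T < T' → ∀ g g' : G,
      T' ≤ centralizer ({g * z * g⁻¹} : Set G) → T' ≤ centralizer ({g' * z * g'⁻¹} : Set G) →
      ∀ t ∈ T', (t ∈ g ⋆ K ↔ t ∈ g' ⋆ K) := fun T' hT' hlt => by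
    have h1 := card_lt_of_lt hlt
    have h2 : Nat.card T' ≤ Nat.card G := card_le_card_group T'
    exact ih _ (by omega) T' hT' rfl
  -- the stabilizer of all sign maps
  let St : Subgroup G :=
    { carrier := {l | l ∈ normalizer (T : Set G) ∧ ∀ g : G, T ≤ centralizer ({g * z * g⁻¹} : Set G) →
        ∀ t ∈ T, (l * t * l⁻¹ ∈ g ⋆ K ↔ t ∈ g ⋆ K)}
      one_mem' := ⟨one_mem _, fun g _ t _ => by rw [one_mul, inv_one, mul_one]⟩
      mul_mem' := by
        rintro a b ⟨ha, ha'⟩ ⟨hb, hb'⟩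
        refine ⟨mul_mem ha hb, fun g hg t ht => ?_⟩
        rw [show a * b * t * (a * b)⁻¹ = a * (b * t * b⁻¹) * a⁻¹ by group,
          ha' g hg _ ((mem_normalizer_iff.1 hb t).1 ht), hb' g hg t ht]
      inv_mem' := by
        rintro a ⟨ha, ha'⟩
        refine ⟨inv_mem ha, fun g hg t ht => ?_⟩
        rw [← ha' g hg _ ((mem_normalizer_iff.1 (inv_mem ha) t).1 ht),
          show a * (a⁻¹ * t * a⁻¹⁻¹) * a⁻¹ = t by group] }
  have hTSt : T ≤ St := fun l hl => ⟨le_normalizer hl, fun g hg t ht =>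
    conj_mem_conj_iff hKi (hg hl) (hg ht)⟩
  have hCSt : centralizer (T : Set G) ≤ St := fun l hl =>
    ⟨centralizer_le_normalizer _ hl, fun g hg t ht => by rw [← hl t ht, mul_inv_cancel_right]⟩
  -- the main reduction
  have main : (∀ g : G, T ≤ centralizer ({g * z * g⁻¹} : Set G) → ∃ T' : Subgroup G, IsPGroup 2 T' ∧
      T < T' ∧ T' ≤ St ∧ T' ≤ centralizer ({g * z * g⁻¹} : Set G)) → ∀ g g' : G,
      T ≤ centralizer ({g * z * g⁻¹} : Set G) → T ≤ centralizer ({g' * z * g'⁻¹} : Set G) →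
      ∀ t ∈ T, (t ∈ g ⋆ K ↔ t ∈ g' ⋆ K) := by
    intro hex
    obtain ⟨R, -, hRSt, hR, hRi⟩ := exists_sylowIn_ge hT hTSt
    obtain ⟨k, hk⟩ := exists_conj_le_of_not_dvd_index hodd hR
    have hk' : R ≤ centralizer ({k⁻¹ * z * k⁻¹⁻¹} : Set G) := fun x hx => by
      rw [mem_cen_conj, inv_inv]; exact conj_le_iff.1 hk x hx
    have key : ∀ g : G, T ≤ centralizer ({g * z * g⁻¹} : Set G) → ∀ t ∈ T,
        (t ∈ g ⋆ K ↔ t ∈ k⁻¹ ⋆ K) := by
      intro g hg t ht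
      obtain ⟨T', hT', hlt, hSt, hc⟩ := hex g hg
      obtain ⟨l, hl, hlR⟩ := exists_conj_le_of_not_dvd_relIndex hR hRi hT' hSt
      have hlT : l ⋆ T = T := conj_eq_self_iff.2 hl.1
      have h1 := ih' (l ⋆ T') (isPGroup_conj hT' l) (hlT ▸ conj_lt_conj_iff.2 hlt) (l * g) k⁻¹
        (fun x hx => by
          rw [mem_cen_conj, show (l * g)⁻¹ * x * (l * g) = g⁻¹ * (l⁻¹ * x * l) * g by group,
            ← mem_cen_conj]
          exact hc (mem_conj.1 hx))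
        (hlR.trans hk') (l * t * l⁻¹) (conj_mem_conj.2 (hlt.le ht))
      rw [← conj_conj, conj_mem_conj] at h1
      have hTk : T ≤ centralizer ({k⁻¹ * z * k⁻¹⁻¹} : Set G) :=
        hlT ▸ ((conj_mono l hlt.le).trans hlR).trans hk'
      rw [h1, hl.2 k⁻¹ hTk t ht]
    intro g g' hg hg' t ht
    rw [key g hg t ht, key g' hg' t ht]
  have hw2 : ∀ g : G, IsPGroup 2 (zpowers (g * z * g⁻¹)) := fun g =>
    IsPGroup.of_card (n := 1) (by rw [Nat.card_zpowers, orderOf_conj_eq, h.ord, pow_one])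
  have hwc : ∀ g : G, T ≤ centralizer ({g * z * g⁻¹} : Set G) →
      zpowers (g * z * g⁻¹) ≤ centralizer (T : Set G) := fun g hg =>
    zpowers_le_of_mem fun t ht => mem_centralizer_singleton_iff.1 (hg ht)
  by_cases ha : ∃ g₁ : G, T ≤ centralizer ({g₁ * z * g₁⁻¹} : Set G) ∧ g₁ * z * g₁⁻¹ ∉ T
  · obtain ⟨g₁, hg₁, hg₁T⟩ := ha
    refine main fun g hg => ?_
    have aux : ∀ g₂ : G, T ≤ centralizer ({g₂ * z * g₂⁻¹} : Set G) → g₂ * z * g₂⁻¹ ∉ T →
        g₂ * z * g₂⁻¹ ∈ centralizer ({g * z * g⁻¹} : Set G) → ∃ T' : Subgroup G, IsPGroup 2 T' ∧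
        T < T' ∧ T' ≤ St ∧ T' ≤ centralizer ({g * z * g⁻¹} : Set G) := fun g₂ h1 h2 h3 =>
      ⟨T ⊔ zpowers (g₂ * z * g₂⁻¹), hT.to_sup_of_normal_left' (hw2 g₂)
        ((hwc g₂ h1).trans (centralizer_le_normalizer _)),
        lt_of_le_of_ne le_sup_left fun e => h2 (e ▸ mem_sup_right (mem_zpowers _)),
        sup_le hTSt ((hwc g₂ h1).trans hCSt), sup_le hg (zpowers_le_of_mem h3)⟩
    by_cases hgT : g * z * g⁻¹ ∈ T
    · exact aux g₁ hg₁ hg₁T (mem_centralizer_singleton_iff.2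
        (mem_centralizer_singleton_iff.1 (hg₁ hgT)).symm)
    · exact aux g hg hgT (mem_centralizer_singleton_iff.2 rfl)
  push Not at ha
  by_cases hb : ∃ g₁ : G, T ≤ centralizer ({g₁ * z * g₁⁻¹} : Set G) ∧ g₁ ⋆ E ≤ T
  · obtain ⟨g₁, hg₁, hg₁T⟩ := hb
    have key : ∀ g : G, T ≤ centralizer ({g * z * g⁻¹} : Set G) → g * z * g⁻¹ = g₁ * z * g₁⁻¹ := by
      intro g hg
      have h1 : g * z * g⁻¹ ∈ centralizer ((g₁ ⋆ E : Subgroup G) : Set G) := fun x hx =>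
        mem_centralizer_singleton_iff.1 (hg (hg₁T hx))
      rw [(h.conj g₁).centralizer_eq (isExtraspecial_conj hE g₁)] at h1
      exact ((h.conj g₁).toSy.mem_iff.1 h1).resolve_left (h.conj g).toSy.ne_one
    intro g g' hg hg' t ht
    exact hsame g g' ((key g hg).trans (key g' hg').symm) t (hg ht)
  push Not at hb
  refine main fun g hg => ?_
  have hTn : T ≤ normalizer ((g ⋆ E : Subgroup G) : Set G) := hg.trans (h.conj g).norm
  have hTE : IsPGroup 2 ↥(g ⋆ E ⊔ T) := (h.conj g).toSy.isPGroup.to_sup_of_normal_left' hT hTn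
  refine ⟨(g ⋆ E ⊔ T) ⊓ normalizer (T : Set G), hTE.to_le inf_le_left,
    lt_inf_normalizer_of_lt hTE (lt_of_le_of_ne le_sup_right fun e => hb g hg (e ▸ le_sup_left)),
    fun x hx => ?_, inf_le_left.trans (sup_le (h.conj g).cent hg)⟩
  obtain ⟨u, hu, s, hs, rfl⟩ := exists_mul_of_mem_sup hTn hx.1
  refine St.mul_mem ?_ (hTSt hs)
  have huN : u ∈ normalizer (T : Set G) := by
    have := (normalizer (T : Set G)).mul_mem hx.2 ((normalizer (T : Set G)).inv_mem (le_normalizer hs))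
    rwa [mul_inv_cancel_right] at this
  refine ⟨huN, fun g₂ hg₂ t ht => ?_⟩
  by_cases e : g * z * g⁻¹ = g₂ * z * g₂⁻¹
  · exact conj_mem_conj_iff hKi (e ▸ (h.conj g).cent hu) (hg₂ ht)
  have hcT : u * t * u⁻¹ * t⁻¹ ∈ T := mul_mem ((mem_normalizer_iff.1 huN t).1 ht) (inv_mem ht)
  have hcE : u * t * u⁻¹ * t⁻¹ ∈ g ⋆ E := commutator_mem_of_mem_normalizer' (hTn ht) hu
  have hK : u * t * u⁻¹ * t⁻¹ ∈ g₂ ⋆ K := by
    rw [mem_conj]
    refine hyp (g₂⁻¹ * g) (fun e' => e ?_) ?_ _ ?_ (mem_cen_conj.1 (hg₂ hcT))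
    · calc g * z * g⁻¹ = g₂ * (g₂⁻¹ * g * z * (g₂⁻¹ * g)⁻¹) * g₂⁻¹ := by group
        _ = _ := by rw [e']
    · rw [show g₂⁻¹ * g * z * (g₂⁻¹ * g)⁻¹ = g₂⁻¹ * (g * z * g⁻¹) * g₂ by group]
      exact mem_cen_conj.1 (hg₂ (ha g hg))
    · rw [← conj_conj, ← inv_inv g₂, inv_inv g₂⁻¹, conj_mem_conj]; exact hcE
  have := mul_mem_conj_iff hKi (hg₂ hcT) (hg₂ ht)
  rw [inv_mul_cancel_right] at this
  rw [this]
  exact ⟨fun h1 => h1.1 hK, fun h1 => iff_of_true hK h1⟩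

/-- Lemma A. -/
theorem exists_not_mem (hres : pResidual 2 G = ⊤) (h : Lg E z) (hE : IsExtraspecial 2 E)
    (hKH : K ≤ centralizer ({z} : Set G)) (hKi : K.relIndex (centralizer ({z} : Set G)) = 2) :
    ∃ g : G, g * z * g⁻¹ ≠ z ∧ g * z * g⁻¹ ∈ centralizer ({z} : Set G) ∧
      ∃ b ∈ g ⋆ E, b ∈ centralizer ({z} : Set G) ∧ b ∉ K := by
  haveI : Fact (Nat.Prime 2) := ⟨Nat.prime_two⟩
  by_contra hcon
  push Not at hcon
  have hodd := not_dvd_index h hE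
  haveI : (K.subgroupOf (centralizer ({z} : Set G))).Normal := normal_of_index_eq_two hKi
  have hc2 : Nat.card (centralizer ({z} : Set G) ⧸ K.subgroupOf (centralizer ({z} : Set G))) = 2 := hKi
  haveI : IsCyclic (centralizer ({z} : Set G) ⧸ K.subgroupOf (centralizer ({z} : Set G))) :=
    isCyclic_of_prime_card hc2
  obtain ⟨S, -, hSH, hS, hSi⟩ := exists_sylowIn_ge (p := 2) (Q := ⊥) IsPGroup.of_bot
    (bot_le : ⊥ ≤ centralizer ({z} : Set G))
  obtain ⟨x, hxS, hxK⟩ : ∃ x ∈ S, x ∉ K := by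
    by_contra hh
    push Not at hh
    exact hSi (hKi ▸ relIndex_dvd_of_le_left _ hh)
  have hx2 : IsPGroup 2 (zpowers x) := hS.to_le (zpowers_le_of_mem hxS)
  obtain ⟨V, hV⟩ := exists_hom_ne_one_of_controlled (p := 2) (K := K) hodd (hSH hxS) hxK
    (by obtain ⟨k, hk⟩ := hS ⟨x, hxS⟩; exact ⟨k, congrArg Subtype.val hk⟩) fun m a ha => by
      have hm : x ^ m ∈ centralizer ({z} : Set G) := pow_mem (hSH hxS) m
      have h1 := sign_eq h hE hKH hKi hcon _ (zpowers (x ^ m))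
        (hx2.to_le (zpowers_le_of_mem (pow_mem (mem_zpowers x) m))) rfl 1 a⁻¹
        (zpowers_le_of_mem (by simpa using hm))
        (zpowers_le_of_mem (by rw [mem_cen_conj, inv_inv]; exact ha)) _ (mem_zpowers _)
      rw [conj_one, mem_conj, inv_inv] at h1
      exact (mul_mem_iff_of_index_two hKi (a := ⟨_, ha⟩) (b := ⟨_, inv_mem hm⟩)).2
        (by rw [mem_subgroupOf, mem_subgroupOf]; simpa using h1.symm)
  exact hV (pResidual_le_ker (IsPGroup.of_card (n := 1) (by rw [hc2]; rfl)) V (hres ▸ mem_top x))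

end Cfsg.Lib.LXT
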