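import Cfsg.Agent.Lib.LXT.A

/-!
# Squares of elements of `E^g ∩ C(z)`
-/

namespace Cfsg.Lib.LXT

open Subgroup Cfsg.Lib.ES Cfsg.Lib.Transfer
open scoped commutatorElement

set_option linter.style.haveILetI false

variable {G : Type*} [Group G] {Q : Subgroup G} {d : G}

theorem cm_mul (h : Sy Q d) {x y u : G} (hx : x ∈ Q) (hy : y ∈ Q) (hu : u ∈ Q) :
    x * y * u = u * (x * y) ↔ (x * u = u * x ↔ y * u = u * y) := by
  have aux : ∀ x ∈ Q, (x * u = u * x ↔ u * x * u⁻¹ = x) := fun x _ => by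
    rw [mul_inv_eq_iff_eq_mul, eq_comm]
  have hne : ∀ x : G, d * x ≠ x := fun x e => h.ne_one (mul_eq_right.1 e)
  rw [aux _ (Q.mul_mem hx hy), aux _ hx, aux _ hy,
    show u * (x * y) * u⁻¹ = (u * x * u⁻¹) * (u * y * u⁻¹) by group]
  rcases h.conj_eq_or hu hx with h1 | h1 <;> rcases h.conj_eq_or hu hy with h2 | h2 <;> rw [h1, h2]
  · simp
  · rw [← mul_assoc, h.comm hx, mul_assoc]; simp [hne]
  · rw [mul_assoc]; simp [hne]
  · rw [mul_assoc, ← mul_assoc x, h.comm hx, ← mul_assoc, ← mul_assoc, h.mul_self, one_mul]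
    simp [hne]

theorem cm_inv {x u : G} : x⁻¹ * u = u * x⁻¹ ↔ x * u = u * x :=
  ⟨fun h => by simpa using (Commute.inv_left h).eq, fun h => (Commute.inv_left h).eq⟩

theorem cm_conj {t x u : G} :
    t * x * t⁻¹ * (t * u * t⁻¹) = t * u * t⁻¹ * (t * x * t⁻¹) ↔ x * u = u * x := by
  rw [show t * x * t⁻¹ * (t * u * t⁻¹) = t * (x * u) * t⁻¹ by group,
    show t * u * t⁻¹ * (t * x * t⁻¹) = t * (u * x) * t⁻¹ by group, mul_left_inj, mul_right_inj]

/-- the easy half of the duality -/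
theorem cm_commutator (h : Sy Q d) {t q f : G} (ht : t ∈ normalizer (Q : Set G)) (hq : q ∈ Q)
    (htq : ⁅t, q⁆ ∈ zpowers d) (hf : f ∈ Q) : ⁅t, f⁆ * q = q * ⁅t, f⁆ := by
  have hf' : t * f * t⁻¹ ∈ Q := (mem_normalizer_iff.1 ht f).1 hf
  rw [commutatorElement_def, cm_mul h hf' (Q.inv_mem hf) hq, cm_inv, ← cm_conj (t := t) (x := f),
    show t * q * t⁻¹ = ⁅t, q⁆ * q by rw [commutatorElement_def]; group, eq_comm,
    eq_comm (a := t * f * t⁻¹ * _), cm_mul h (h.zpowers_le htq) hq hf']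
  have : ⁅t, q⁆ * (t * f * t⁻¹) = t * f * t⁻¹ * ⁅t, q⁆ := (h.zpowers_le_centralizer htq _ hf').symm
  simp [this]

variable [Finite G]

/-- duality, relative form -/
theorem dual_rel (h : Sy Q d) (hQ : IsExtraspecial 2 Q) {t w x : G}
    (ht : t ∈ normalizer (Q : Set G)) (hw : w ∈ Q) (htw : t * w = w * t) (hx : x ∈ Q)
    (hc : ∀ q ∈ Q, q * w = w * q → ⁅t, q⁆ ∈ zpowers w ⊔ zpowers d → q * x = x * q) :
    x ∈ closure {c | ∃ f ∈ Q, f * w = w * f ∧ c = ⁅t, f⁆} ⊔ zpowers w ⊔ zpowers d := by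
  haveI : Fact (Nat.Prime 2) := ⟨Nat.prime_two⟩
  have hcen := inf_centralizer_eq_zpowers hQ h.mem h.ne_one h.cent
  set A := closure {c | ∃ f ∈ Q, f * w = w * f ∧ c = ⁅t, f⁆} ⊔ zpowers w with hA
  have hAQ : A ≤ Q := sup_le ((closure_le _).2 (by
    rintro _ ⟨f, hf, -, rfl⟩
    exact commutator_mem_of_mem_normalizer ht hf)) (zpowers_le_of_mem hw)
  rw [← hcen, ← inf_centralizer_inf_centralizer hQ hAQ]
  refine ⟨hx, fun v hv => ?_⟩
  have hvw : v * w = w * v := (hv.2 w (mem_sup_right (mem_zpowers w))).symm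
  refine hc v hv.1 hvw ?_
  rw [← hcen, ← inf_centralizer_inf_centralizer hQ (zpowers_le_of_mem hw)]
  refine ⟨commutator_mem_of_mem_normalizer ht hv.1, fun f' hf' => ?_⟩
  obtain ⟨f, rfl⟩ : ∃ f, f' = t * f * t⁻¹ := ⟨t⁻¹ * f' * t, by group⟩
  have hf : f ∈ Q := (mem_normalizer_iff.1 ht f).2 hf'.1
  have hfw : f * w = w * f := by
    have := hf'.2 w (mem_zpowers w)
    rw [← cm_conj (t := t), show t * w * t⁻¹ = w by rw [htw]; group]
    exact this.symm
  have h1 : ⁅t, f⁆ * v = v * ⁅t, f⁆ := hv.2 _ (mem_sup_left (subset_closure ⟨f, hf, hfw, rfl⟩))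
  rw [commutatorElement_def, cm_mul h hf'.1 (Q.inv_mem hf) hv.1, cm_inv] at h1
  rw [eq_comm, commutatorElement_def, cm_mul h ((mem_normalizer_iff.1 ht v).1 hv.1) (Q.inv_mem hv.1)
    hf'.1, cm_inv, cm_conj, eq_comm (a := v * f), eq_comm (a := v * _), h1]

/-- duality, elementwise form -/
theorem dual (h : Sy Q d) (hQ : IsExtraspecial 2 Q) {t x : G}
    (ht : t ∈ normalizer (Q : Set G)) (hx : x ∈ Q)
    (hc : ∀ q ∈ Q, ⁅t, q⁆ ∈ zpowers d → q * x = x * q) :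
    ∃ f ∈ Q, x = ⁅t, f⁆ ∨ x = d * ⁅t, f⁆ := by
  have hm : ∀ f ∈ Q, ⁅t, f⁆ ∈ Q := fun f hf => commutator_mem_of_mem_normalizer ht hf
  have hdd : ∀ a : G, d * (d * a) = a := fun a => by rw [← mul_assoc, h.mul_self, one_mul]
  have hd : ∀ a ∈ Q, ∀ b : G, a * (d * b) = d * (a * b) := fun a ha b => by
    rw [← mul_assoc, h.comm ha, mul_assoc]
  let M : Subgroup G :=
    { carrier := {x | ∃ f ∈ Q, x = ⁅t, f⁆ ∨ x = d * ⁅t, f⁆}
      one_mem' := ⟨1, one_mem _, Or.inl (by simp)⟩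
      mul_mem' := by
        rintro a b ⟨f, hf, ha⟩ ⟨f', hf', hb⟩
        refine ⟨f * f', Q.mul_mem hf hf', ?_⟩
        have e : ⁅t, f * f'⁆ = ⁅t, f⁆ * (f * ⁅t, f'⁆ * f⁻¹) := by
          simp only [commutatorElement_def]; group
        rcases h.conj_eq_or hf (hm f' hf') with h1 | h1 <;> rw [e, h1] <;>
          rcases ha with rfl | rfl <;> rcases hb with rfl | rfl <;>
          simp only [mul_assoc, hd _ (hm f hf), hdd, true_or, or_true]
      inv_mem' := by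
        rintro a ⟨f, hf, ha⟩
        refine ⟨f⁻¹, Q.inv_mem hf, ?_⟩
        have e : ⁅t, f⁻¹⁆ = f⁻¹ * ⁅t, f⁆⁻¹ * f⁻¹⁻¹ := by
          simp only [commutatorElement_def]; group
        have e2 : (d * ⁅t, f⁆)⁻¹ = d * ⁅t, f⁆⁻¹ := by
          rw [mul_inv_rev, h.inv_eq, h.comm (Q.inv_mem (hm f hf))]
        rcases h.conj_eq_or (Q.inv_mem hf) (Q.inv_mem (hm f hf)) with h1 | h1 <;> rw [e, h1] <;>
          rcases ha with rfl | rfl <;> simp only [e2, hdd, true_or, or_true] }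
  have h1 := dual_rel h hQ ht Q.one_mem (by simp) hx fun q hq _ hq' => hc q hq (by simpa using hq')
  have h2 : closure {c | ∃ f ∈ Q, f * 1 = 1 * f ∧ c = ⁅t, f⁆} ⊔ zpowers 1 ⊔ zpowers d ≤ M :=
    sup_le (sup_le ((closure_le _).2 (by rintro _ ⟨f, hf, -, rfl⟩; exact ⟨f, hf, Or.inl rfl⟩))
      (by simp)) (zpowers_le_of_mem ⟨1, one_mem _, Or.inr (by simp)⟩)
  exact h2 h1

theorem sq_mem_rel (h : Sy Q d) (hQ : IsExtraspecial 2 Q) {b w : G}
    (hb : b ∈ normalizer (Q : Set G)) (hbd : b * d = d * b) (hw : w ∈ Q) (hww : w * w = 1)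
    (hbw : b * w = w * b) (hbb : b * b ∈ Q) :
    b * b ∈ closure {c | ∃ f ∈ Q, f * w = w * f ∧ c = ⁅b, f⁆} ⊔ zpowers w ⊔ zpowers d := by
  refine dual_rel h hQ hb hw hbw hbb fun q _ _ hc => ?_
  have hwd : w * d = d * w := h.comm hw
  rw [zpowers_eq_closure, zpowers_eq_closure, ← Subgroup.closure_union, Set.singleton_union,
    mem_closure_pair_iff hww h.mul_self hwd] at hc
  have h1 : b * ⁅b, q⁆ * b⁻¹ * ⁅b, q⁆ = 1 := by
    rcases hc with h1 | h1 | h1 | h1 <;> rw [h1]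
    · simp
    · rw [hbw, mul_inv_cancel_right, hww]
    · rw [hbd, mul_inv_cancel_right, h.mul_self]
    · rw [← mul_assoc b, hbw, mul_assoc w, hbd, ← mul_assoc w, mul_inv_cancel_right, mul_assoc,
        ← mul_assoc d, ← hwd, mul_assoc, h.mul_self, mul_one, hww]
  calc q * (b * b) = (b * ⁅b, q⁆ * b⁻¹ * ⁅b, q⁆) * q * (b * b) := by rw [h1, one_mul]
    _ = b * b * q := by simp only [commutatorElement_def]; group

/-- If `b` normalizes `Q`, `b² = y` is an involution and `C_Q(y) ≤ C(b)`, then `y` centralizes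
`Q / Z(Q)`. -/
theorem commutator_mem_of_sq (h : Sy Q d) {b y : G} (hb : b ∈ normalizer (Q : Set G))
    (hbd : b * d = d * b) (hby : b * b = y) (hyy : y * y = 1)
    (hA : ∀ q ∈ Q, q * y = y * q → q * b = b * q) : ∀ f ∈ Q, ⁅y, f⁆ ∈ zpowers d := by
  have hy : y ∈ normalizer (Q : Set G) := hby ▸ mul_mem hb hb
  have hm : ∀ f ∈ Q, ⁅b, f⁆ ∈ Q := fun f hf => commutator_mem_of_mem_normalizer hb hf
  have hmy : ∀ f ∈ Q, ⁅y, f⁆ ∈ Q := fun f hf => commutator_mem_of_mem_normalizer hy hf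
  have hbc : ∀ c ∈ zpowers d, b * c * b⁻¹ = c := fun c hc => by
    rcases h.mem_iff.1 hc with rfl | rfl
    · simp
    · rw [hbd, mul_inv_cancel_right]
  have hform : ∀ f : G, ⁅y, f⁆ = ⁅b, ⁅b, f⁆⁆ * ⁅b, f⁆ ^ 2 := fun f => by
    rw [← hby]; simp only [commutatorElement_def, sq]; group
  have hby' : b * y * b⁻¹ = y := by rw [← hby]; group
  -- (ii)
  have h2 : ∀ q ∈ Q, ⁅y, q⁆ = d → ⁅b, q⁆ * q ≠ q * ⁅b, q⁆ := by
    intro q hq hyq hcm
    have e1 : ⁅y, b * q * b⁻¹⁆ = ⁅y, q⁆ := by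
      calc ⁅y, b * q * b⁻¹⁆ = ⁅b * y * b⁻¹, b * q * b⁻¹⁆ := by rw [hby']
        _ = b * ⁅y, q⁆ * b⁻¹ := by simp only [commutatorElement_def]; group
        _ = ⁅y, q⁆ := hbc _ (hyq ▸ mem_zpowers d)
    have e2 : ⁅b, q⁆ * y = y * ⁅b, q⁆ := by
      have e3 : y * ⁅b, q⁆ * y⁻¹ = ⁅y, b * q * b⁻¹⁆ * ⁅b, q⁆ * (q * (q⁻¹ * ⁅y, q⁆⁻¹ * q) * q⁻¹) := by
        simp only [commutatorElement_def]; group
      rw [e1, hyq, h.inv_eq, show q * (q⁻¹ * d * q) * q⁻¹ = d by group, mul_assoc d,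
        h.comm (hm q hq), ← mul_assoc, h.mul_self, one_mul] at e3
      exact (mul_inv_eq_iff_eq_mul.1 e3).symm
    have e4 := hA _ (hm q hq) e2
    have e5 : ⁅b, q⁆ ^ 2 = d := by
      rw [← hyq, hform q, commutatorElement_eq_one_iff_mul_comm.2 e4.symm, one_mul]
    have e6 : (⁅b, q⁆ * q) ^ 2 = q ^ 2 := by
      rw [show ⁅b, q⁆ * q = b * q * b⁻¹ by simp only [commutatorElement_def]; group, conj_pow,
        hbc _ (h.sq_mem q hq)]
    rw [Commute.mul_pow hcm, e5] at e6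
    exact h.ne_one (mul_eq_right.1 e6)
  -- (iii)
  have h3 : ∀ f ∈ Q, ⁅y, ⁅b, f⁆⁆ ∈ zpowers d → ⁅y, f⁆ ∈ zpowers d := by
    intro f hf hu
    rcases h.mem_iff.1 hu with h4 | h4
    · have := hA _ (hm f hf) (commutatorElement_eq_one_iff_mul_comm.1 h4).symm
      rw [hform f, commutatorElement_eq_one_iff_mul_comm.2 this.symm, one_mul]
      exact h.sq_mem _ (hm f hf)
    · refine absurd ?_ (h2 _ (hm f hf) h4)
      have h5 := cm_commutator h hy (hm f hf) hu hf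
      rw [hform f, cm_mul h (hm _ (hm f hf)) (Q.pow_mem (hm f hf) 2) (hm f hf)] at h5
      exact h5.2 (by rw [sq, mul_assoc])
  intro f hf
  refine h3 f hf (h3 _ (hm f hf) ?_)
  have h4 : ⁅y, ⁅y, f⁆⁆ ∈ zpowers d := by
    have : ⁅y, ⁅y, f⁆⁆ = (⁅y, f⁆⁻¹) ^ 2 := by
      calc ⁅y, ⁅y, f⁆⁆ = (y * y) * f * y⁻¹ * f⁻¹ * y⁻¹ * ⁅y, f⁆⁻¹ := by
            simp only [commutatorElement_def]; group
        _ = _ := by
            rw [hyy, one_mul, inv_eq_of_mul_eq_one_right hyy]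
            simp only [commutatorElement_def, sq, inv_eq_of_mul_eq_one_right hyy, mul_inv_rev, inv_inv,
              mul_assoc]
    rw [this]; exact h.sq_mem _ (Q.inv_mem (hmy f hf))
  have h5 : y * ⁅b, f⁆ ^ 2 = ⁅b, f⁆ ^ 2 * y := by
    rcases h.mem_iff.1 (h.sq_mem _ (hm f hf)) with h6 | h6 <;> rw [h6]
    · simp
    · rw [← hby, mul_assoc, hbd, ← mul_assoc, hbd, mul_assoc]
  have h6 : ⁅y, ⁅b, ⁅b, f⁆⁆⁆ = ⁅y, ⁅y, f⁆⁆ := by
    rw [hform f]
    generalize ⁅b, ⁅b, f⁆⁆ = c at *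
    generalize ⁅b, f⁆ ^ 2 = e at *
    calc ⁅y, c⁆ = y * c * (e * y⁻¹ * e⁻¹) * c⁻¹ := by
          rw [show e * y⁻¹ * e⁻¹ = e * (e * y)⁻¹ by group, ← h5]; simp only [commutatorElement_def]; group
      _ = _ := by simp only [commutatorElement_def]; group
  rw [h6]; exact h4

theorem mem_commutator_of_sq {E : Subgroup G} {z : G} (h : Lg E z) (hE : IsExtraspecial 2 E) {g b : G}
    (hne : g * z * g⁻¹ ≠ z) (hbR : b ∈ g ⋆ E) (hbH : b ∈ centralizer ({z} : Set G))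
    (hby : b * b = g * z * g⁻¹) :
    g * z * g⁻¹ ∈ ⁅centralizer ({z} : Set G), centralizer ({z} : Set G)⁆ := by
  haveI : Fact (Nat.Prime 2) := ⟨Nat.prime_two⟩
  set H := centralizer ({z} : Set G) with hH
  have hR := h.conj g
  have hRe := isExtraspecial_conj hE g
  set y := g * z * g⁻¹ with hy
  set R := g ⋆ E with hRdef
  have hs := h.toSy
  have hyH : y ∈ H := hby ▸ H.mul_mem hbH hbH
  have hyz : y * z = z * y := mem_centralizer_singleton_iff.1 hyH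
  have hbz : b * z = z * b := mem_centralizer_singleton_iff.1 hbH
  have hzH : z ∈ H := hs.cent hs.mem
  have hzHH : ∀ d ∈ E, orderOf d = 2 → d ≠ z → z ∈ ⁅H, H⁆ := fun d hd ho hdz => by
    obtain ⟨s, hsE, e⟩ := hs.exists_commutator_eq hd (hs.not_mem_centralizer hd ho hdz)
    exact e ▸ commutator_mem_commutator (hs.cent hsE) (hs.cent hd)
  by_cases hyE : y ∈ E
  · have h1 := sq_mem_rel hs hE (h.norm hbH) hbz E.one_mem (by simp) (by simp) (hby ▸ hyE)
    rw [hby] at h1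
    refine (sup_le (sup_le ((closure_le _).2 ?_) (by simp))
      (zpowers_le_of_mem (hzHH y hyE hR.ord hne)) : _ ≤ ⁅H, H⁆) h1
    rintro _ ⟨f, hf, -, rfl⟩
    exact commutator_mem_commutator hbH (hs.cent hf)
  by_contra hyHH
  have hzR : z ∉ R := fun hz => hyE (by
    have := hR.mem_conj (g := g⁻¹) (by rw [hy]; simpa [mul_assoc] using hz)
    rwa [hRdef, inv_conj_conj] at this)
  have hzN : z ∈ normalizer (R : Set G) := hR.norm (mem_centralizer_singleton_iff.2 hyz.symm)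
  have hB : ∀ a ∈ R, a ∈ H → ∀ c ∈ R, c ∈ H → a * c = c * a := fun a ha ha' c hc hc' => by
    rcases hR.toSy.mem_iff.1 (hR.toSy.commutator_mem ha hc) with e | e
    · exact commutatorElement_eq_one_iff_mul_comm.1 e
    · exact absurd (e ▸ commutator_mem_commutator ha' hc') hyHH
  have hinv : ∀ x ∈ R, x ∈ H → (∀ q ∈ R, ⁅z, q⁆ ∈ zpowers y → q * x = x * q) → x * x = 1 := by
    intro x hx hxH hc
    obtain ⟨f, hf, e⟩ := dual hR.toSy hRe hzN hx hc
    have e1 : z * ⁅z, f⁆ * z⁻¹ = ⁅z, f⁆⁻¹ := by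
      calc z * ⁅z, f⁆ * z⁻¹ = (z * z) * f * z⁻¹ * f⁻¹ * z⁻¹ := by
            simp only [commutatorElement_def]; group
        _ = _ := by simp only [commutatorElement_def, hs.mul_self, one_mul, hs.inv_eq, mul_inv_rev,
            inv_inv, mul_assoc]
    have e2 : z * x * z⁻¹ = x := by rw [← mem_centralizer_singleton_iff.1 hxH, mul_inv_cancel_right]
    rcases e with e | e
    · rw [e, e1] at e2; rw [e]; nth_rw 1 [← e2]; exact inv_mul_cancel _
    · have e3 : z * x * z⁻¹ = y * ⁅z, f⁆⁻¹ := by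
        rw [e, ← e1, ← mul_assoc, ← hyz]; group
      have hc' := hR.toSy.comm (commutator_mem_of_mem_normalizer hzN hf)
      calc x * x = (y * ⁅z, f⁆⁻¹) * (⁅z, f⁆ * y) := by rw [← e3, e2, hc', ← e]
        _ = 1 := by rw [mul_assoc, inv_mul_cancel_left, hR.toSy.mul_self]
  obtain ⟨e, heR, hez, heb⟩ : ∃ e ∈ R, ⁅z, e⁆ ∈ zpowers y ∧ e * b ≠ b * e := by
    by_contra hh
    push Not at hh
    exact hR.toSy.ne_one (hby ▸ hinv b hbR hbH hh)
  have hcm : ∀ q : G, ⁅z, q⁆ = 1 → q ∈ H := fun q hq =>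
    mem_centralizer_singleton_iff.2 (commutatorElement_eq_one_iff_mul_comm.1 hq).symm
  have hey : ⁅z, e⁆ = y := (hR.toSy.mem_iff.1 hez).resolve_left fun h1 =>
    heb (hB e heR (hcm e h1) b hbR hbH)
  -- elements of `B` commuting with `e` centralize `Q₀`
  have hQ0 : ∀ x ∈ R, x ∈ H → x * e = e * x → ∀ q ∈ R, ⁅z, q⁆ ∈ zpowers y → q * x = x * q := by
    intro x hx hxH hxe q hq hzq
    rcases hR.toSy.mem_iff.1 hzq with h1 | h1
    · exact hB q hq (hcm q h1) x hx hxH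
    · have h2 : q * e ∈ H := hcm _ (by
        calc ⁅z, q * e⁆ = ⁅z, q⁆ * (q * ⁅z, e⁆ * q⁻¹) := by simp only [commutatorElement_def]; group
          _ = 1 := by rw [h1, hey, hR.toSy.comm hq, mul_inv_cancel_right, hR.toSy.mul_self])
      exact ((cm_mul hR.toSy hq heR hx).1 (hB _ (R.mul_mem hq heR) h2 x hx hxH)).2 hxe.symm
  have hA : ∀ a ∈ E, a * y = y * a → a * b = b * a := by
    intro a ha hay
    by_contra hab
    set d := ⁅a, b⁆ with hd
    have hd1 : d ≠ 1 := fun e1 => hab (commutatorElement_eq_one_iff_mul_comm.1 e1)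
    have hdE : d ∈ E := commutator_mem_of_mem_normalizer' (h.norm hbH) ha
    have hdR : d ∈ R :=
      commutator_mem_of_mem_normalizer (hR.norm (mem_centralizer_singleton_iff.2 hay)) hbR
    have hdH : d ∈ H := hs.cent hdE
    have hdz : d ≠ z := fun e1 => hzR (e1 ▸ hdR)
    have hdd : d * d = 1 := by
      rcases hs.mem_iff.1 (hs.sq_mem d hdE) with e1 | e1
      · rw [← sq, e1]
      · exact absurd (e1 ▸ R.pow_mem hdR 2) hzR
    have hdo : orderOf d = 2 := orderOf_eq_prime (by rw [sq, hdd]) hd1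
    have hbd : b * d = d * b := hB b hbR hbH d hdR hdH
    have hde : d * e = e * d := by
      by_contra hde
      have h1 := hinv (b * d) (R.mul_mem hbR hdR) (H.mul_mem hbH hdH)
        (hQ0 _ (R.mul_mem hbR hdR) (H.mul_mem hbH hdH)
          ((cm_mul hR.toSy hbR hdR heR).2 (iff_of_false (fun e1 => heb e1.symm) hde)))
      rw [mul_assoc, ← mul_assoc d, ← hbd, mul_assoc, hdd, mul_one, hby] at h1
      exact hR.toSy.ne_one h1
    obtain ⟨f, hdf⟩ : ∃ f, d = ⁅z, f⁆ := by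
      obtain ⟨f, hf, e1 | e1⟩ := dual hR.toSy hRe hzN hdR (hQ0 d hdR hdH hde)
      · exact ⟨f, e1⟩
      · refine ⟨e * f, ?_⟩
        have e2 := cm_commutator hR.toSy hzN heR hez hf
        calc d = ⁅z, e⁆ * (e * ⁅z, f⁆ * e⁻¹) := by rw [hey, ← e2, mul_inv_cancel_right, e1]
          _ = _ := by simp only [commutatorElement_def]; group
    obtain ⟨s, -, hsd⟩ := hs.exists_conj hdE (hs.not_mem_centralizer hdE hdo hdz)
    obtain ⟨k, hk⟩ : ∃ k : G, k * z * k⁻¹ = d := by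
      refine ⟨s⁻¹ * f, ?_⟩
      calc s⁻¹ * f * z * (s⁻¹ * f)⁻¹ = s⁻¹ * ((z * z) * f * z⁻¹ * f⁻¹) * s := by
            rw [hs.mul_self, hs.inv_eq]; group
        _ = s⁻¹ * (z * d) * s := by rw [hdf]; simp only [commutatorElement_def]; group
        _ = d := by rw [← hsd]; group
    have hD := h.conj k
    have hzD : z ∈ k ⋆ E := h.mem_conj (hk ▸ hdE)
    have hyD : y ∈ k ⋆ E := by
      have := hR.mem_conj (g := k * g⁻¹) (by
        rw [show k * g⁻¹ * y * (k * g⁻¹)⁻¹ = k * z * k⁻¹ by rw [hy]; group, hk]; exact hdR)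
      rwa [hRdef, conj_conj, inv_mul_cancel_right] at this
    rw [hk] at hD
    have h1 := sq_mem_rel hD.toSy (isExtraspecial_conj hE k)
      (hD.norm (mem_centralizer_singleton_iff.2 hbd)) hbd hzD hs.mul_self hbz (hby ▸ hyD)
    rw [hby] at h1
    refine hyHH ((sup_le (sup_le ((closure_le _).2 ?_) (zpowers_le_of_mem (hzHH d hdE hdo hdz)))
      (zpowers_le_of_mem (commutator_mem_commutator (hs.cent ha) hbH)) : _ ≤ ⁅H, H⁆) h1)
    rintro _ ⟨f, -, hf, rfl⟩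
    exact commutator_mem_commutator hbH (mem_centralizer_singleton_iff.2 hf)
  have h1 := commutator_mem_of_sq hs (h.norm hbH) hbz hby hR.toSy.mul_self hA
  obtain ⟨u, hu, hu'⟩ := exists_inv_mul_mem_centralizer hE (g := y) fun x hx => by
    rw [inf_centralizer_eq_zpowers hE hs.mem hs.ne_one hs.cent]; exact h1 x hx
  exact hyE ((E.mul_mem_cancel_left (E.inv_mem hu)).1 (h.cen_le hu'))

end Cfsg.Lib.LXT
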