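import Cfsg.Agent.Lib.LXT.B

/-!
# Commuting conjugates of a weakly closed large extraspecial involution
-/

namespace Cfsg.Lib.LXT

open Subgroup Cfsg.Lib.ES Cfsg.Lib.Transfer
open scoped commutatorElement

set_option linter.style.haveILetI false

variable {G : Type*} [Group G] [Finite G] {Q R : Subgroup G} {z y : G} {n : ℕ}

structure Pt (n : ℕ) (Q : Subgroup G) (z : G) : Prop where
  lg : Lg Q z
  es : IsExtraspecial 2 Q
  card : Nat.card Q = 2 ^ (2 * n + 1)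
  wc : ∀ g : G, g * z * g⁻¹ ∈ Q → g * z * g⁻¹ = z

theorem Pt.conj (h : Pt n Q z) (g : G) : Pt n (g ⋆ Q) (g * z * g⁻¹) where
  lg := h.lg.conj g
  es := isExtraspecial_conj h.es g
  card := by rw [card_conj, h.card]
  wc := fun k hk => by
    have := h.wc (g⁻¹ * k * g) (by
      rw [mem_conj] at hk
      convert hk using 1; group)
    calc k * (g * z * g⁻¹) * k⁻¹ = g * (g⁻¹ * k * g * z * (g⁻¹ * k * g)⁻¹) * g⁻¹ := by group
      _ = _ := by rw [this]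

theorem Pt.card_mul (h : Pt n Q z) {X : Subgroup G} (hX : X ≤ Q) (hz : z ∈ X) :
    Nat.card ↥(Q ⊓ centralizer (X : Set G)) * Nat.card X = 2 * Nat.card Q := by
  haveI : Fact (Nat.Prime 2) := ⟨Nat.prime_two⟩
  have h1 := card_centralizer_mul h.es (X.subgroupOf Q)
  have h2 : center Q ≤ X.subgroupOf Q := fun c hc => by
    have : (c : G) ∈ zpowers z := h.lg.center_eq h.es ▸ ⟨c, hc, rfl⟩
    exact zpowers_le_of_mem hz this
  rw [sup_eq_left.2 h2, Core.centralizer_subgroupOf_eq hX, ← inf_subgroupOf_right,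
    Nat.card_congr (subgroupOfEquivOfLe inf_le_right).toEquiv,
    Nat.card_congr (subgroupOfEquivOfLe hX).toEquiv, inf_comm] at h1
  exact h1

theorem Pt.card_abel (h : Pt n Q z) {X : Subgroup G} (hX : X ≤ Q) (hz : z ∈ X)
    (hc : ∀ a ∈ X, ∀ b ∈ X, a * b = b * a) : Nat.card X * Nat.card X ≤ 2 * Nat.card Q := by
  rw [← h.card_mul hX hz]
  exact Nat.mul_le_mul_right _ (card_le_of_le (le_inf hX fun a ha b hb => hc b hb a ha))

omit [Finite G] in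
theorem conj_commutator_inv {t u : G} (h : t * (u * u) = u * u * t) :
    u * ⁅t, u⁆ * u⁻¹ = ⁅t, u⁆⁻¹ := by
  calc u * ⁅t, u⁆ * u⁻¹ = ⁅t, u⁆⁻¹ * (t * (u * u) * t⁻¹ * (u * u)⁻¹) := by
        simp only [commutatorElement_def]; group
    _ = _ := by rw [h]; group

omit [Finite G] in
theorem commutator_mul' (t u v : G) : ⁅t, u * v⁆ = ⁅t, u⁆ * (u * ⁅t, v⁆ * u⁻¹) := by
  simp only [commutatorElement_def]; group

structure Pr (n : ℕ) (Q R : Subgroup G) (z y : G) : Prop where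
  q : Pt n Q z
  cj : ∃ g : G, g * z * g⁻¹ = y ∧ g ⋆ Q = R
  comm : z * y = y * z
  ne : y ≠ z

namespace Pr

variable (h : Pr n Q R z y)
include h

theorem r : Pt n R y := by
  obtain ⟨g, rfl, rfl⟩ := h.cj
  exact h.q.conj g

theorem symm : Pr n R Q y z where
  q := h.r
  cj := by
    obtain ⟨g, rfl, rfl⟩ := h.cj
    exact ⟨g⁻¹, by group, inv_conj_conj g Q⟩
  comm := h.comm.symm
  ne := h.ne.symm

omit [Finite G] in
theorem same {u e : G} (hue : u * z * u⁻¹ = e * y * e⁻¹) : u ⋆ Q = e ⋆ R := by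
  obtain ⟨g, rfl, rfl⟩ := h.cj
  rw [conj_conj]
  exact h.q.lg.map_conj_eq (by rw [hue]; group)

omit [Finite G] in
theorem y_not_mem : y ∉ Q := fun hy => by
  obtain ⟨g, e, -⟩ := h.cj
  exact h.ne (e ▸ h.q.wc g (e ▸ hy))

theorem z_not_mem : z ∉ R := h.symm.y_not_mem

theorem zN : z ∈ normalizer (R : Set G) := h.r.lg.norm (mem_centralizer_singleton_iff.2 h.comm)

omit [Finite G] in
theorem zz : z * z = 1 := h.q.lg.toSy.mul_self

theorem yy : y * y = 1 := h.r.lg.toSy.mul_self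

theorem sy : Sy R y := h.r.lg.toSy

omit [Finite G] in
theorem normQ {b : G} (hb : b * z = z * b) : b ∈ normalizer (Q : Set G) :=
  h.q.lg.norm (mem_centralizer_singleton_iff.2 hb)

theorem normR {a : G} (ha : a * y = y * a) : a ∈ normalizer (R : Set G) := h.symm.normQ ha

omit [Finite G] in
theorem f1 {u : G} (hu : ⁅z, u⁆ ∈ Q) : ⁅z, u⁆ = 1 := by
  have e : u * z * u⁻¹ = z⁻¹ * ⁅z, u⁆ := by
    rw [commutatorElement_def, h.q.lg.toSy.inv_eq, ← mul_assoc, ← mul_assoc, ← mul_assoc, h.zz,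
      one_mul]
  have := h.q.wc u (e ▸ Q.mul_mem (Q.inv_mem h.q.lg.mem) hu)
  rw [e, inv_mul_eq_iff_eq_mul, h.zz] at this
  exact this

theorem eq_one_of_mem {x : G} (hx : x ∈ zpowers y) (hq : x ∈ Q) : x = 1 :=
  (h.sy.mem_iff.1 hx).resolve_right fun e => h.y_not_mem (e ▸ hq)

theorem d_sq {d : G} (h1 : d ∈ Q) (h2 : d ∈ R) : d * d = 1 :=
  h.eq_one_of_mem (sq d ▸ h.sy.sq_mem d h2) (Q.mul_mem h1 h1)

theorem d_comm {d b : G} (h1 : d ∈ Q) (h2 : d ∈ R) (hb : b ∈ R) (hbz : b * z = z * b) :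
    d * b = b * d :=
  commutatorElement_eq_one_iff_mul_comm.1 (h.eq_one_of_mem (h.sy.commutator_mem h2 hb)
    (commutator_mem_of_mem_normalizer' (h.normQ hbz) h1))

theorem cmem {u : G} (hu : u ∈ R) : ⁅z, u⁆ ∈ R := commutator_mem_of_mem_normalizer h.zN hu

theorem sq_comm {t u : G} (ht : t * y = y * t) (hu : u ∈ R) : t * (u * u) = u * u * t := by
  rcases h.sy.mem_iff.1 (h.sy.sq_mem u hu) with e | e <;> rw [← sq, e]
  · simp
  · exact ht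

theorem cinv {u : G} (hu : u ∈ R) : u * ⁅z, u⁆ * u⁻¹ = ⁅z, u⁆⁻¹ :=
  conj_commutator_inv (h.sq_comm h.comm hu)

omit [Finite G] in
theorem zcinv (u : G) : z * ⁅z, u⁆ * z⁻¹ = ⁅z, u⁆⁻¹ := by
  calc z * ⁅z, u⁆ * z⁻¹ = (z * z) * u * z⁻¹ * u⁻¹ * z⁻¹ := by
        simp only [commutatorElement_def]; group
    _ = _ := by simp only [commutatorElement_def, h.zz, one_mul, h.q.lg.toSy.inv_eq, mul_inv_rev,
        inv_inv, mul_assoc]

theorem cq0 {u : G} (hu : u ∈ R) : ⁅z, ⁅z, u⁆⁆ ∈ zpowers y := by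
  rw [commutatorElement_def z ⁅z, u⁆, h.zcinv, ← sq]
  exact h.sy.sq_mem _ (R.inv_mem (h.cmem hu))

/-- type `α` : `z` is not conjugate to `y z` in `R` -/
theorem alpha_comm (ha : ∀ u ∈ R, ⁅z, u⁆ ≠ y) {u : G} (hu : u ∈ R) (hc : ⁅z, u⁆ ∈ zpowers y) :
    u * z = z * u :=
  (commutatorElement_eq_one_iff_mul_comm.1 ((h.sy.mem_iff.1 hc).resolve_right (ha u hu))).symm

theorem alpha_dual (ha : ∀ u ∈ R, ⁅z, u⁆ ≠ y) {x : G} (hx : x ∈ R)
    (hc : ∀ b ∈ R, b * z = z * b → b * x = x * b) : ∃ u ∈ R, x = ⁅z, u⁆ ∨ x = y * ⁅z, u⁆ :=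
  dual h.sy h.r.es h.zN hx fun q hq hq' => hc q hq (h.alpha_comm ha hq hq')

theorem alpha_self (ha : ∀ u ∈ R, ⁅z, u⁆ ≠ y) {x : G} (hx : x ∈ R)
    (hc : ∀ b ∈ R, b * z = z * b → b * x = x * b) : x * z = z * x := by
  obtain ⟨u, hu, e | e⟩ := h.alpha_dual ha hx hc
  · rw [e]; exact h.alpha_comm ha (h.cmem hu) (h.cq0 hu)
  · rw [e, mul_assoc, h.alpha_comm ha (h.cmem hu) (h.cq0 hu), ← mul_assoc, ← h.comm, mul_assoc]

theorem alpha_d (ha : ∀ u ∈ R, ⁅z, u⁆ ≠ y) {d : G} (h1 : d ∈ Q) (h2 : d ∈ R) (hd : d ≠ 1) :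
    ∃ u ∈ R, ⁅z, u⁆ = y * d := by
  obtain ⟨u, hu, e | e⟩ := h.alpha_dual ha h2 fun b hb hbz => (h.d_comm h1 h2 hb hbz).symm
  · exact absurd (e.trans (h.f1 (e ▸ h1))) hd
  · exact ⟨u, hu, by rw [e, ← mul_assoc, h.yy, one_mul]⟩

theorem yd_sq {d : G} (h1 : d ∈ Q) (h2 : d ∈ R) : y * d * (y * d) = 1 := by
  rw [mul_assoc, ← mul_assoc d, h.sy.comm h2, mul_assoc, h.d_sq h1 h2, mul_one, h.yy]

theorem ud_comm {u d : G} (hu : u ∈ R) (h1 : d ∈ Q) (h2 : d ∈ R) (e : ⁅z, u⁆ = y * d) :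
    u * d = d * u := by
  have := h.cinv hu
  rw [e, inv_eq_of_mul_eq_one_right (h.yd_sq h1 h2), ← mul_assoc, h.sy.comm hu, mul_assoc,
    mul_assoc, mul_right_inj, ← mul_assoc, mul_inv_eq_iff_eq_mul] at this
  exact this

theorem cross (ha : ∀ u ∈ R, ⁅z, u⁆ ≠ y) {u d d' : G} (hu : u ∈ R) (h1 : d ∈ Q) (h2 : d ∈ R)
    (e : ⁅z, u⁆ = y * d) (h1' : d' ∈ Q) (h2' : d' ∈ R) (hd' : d' ≠ 1) (hc : u * d' = d' * u) :
    d' = d := by
  obtain ⟨u', hu', e'⟩ := h.alpha_d ha h1' h2' hd'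
  have e2 : ⁅z, u * u'⁆ = d * d' := by
    rw [commutator_mul', e, e', ← mul_assoc u, h.sy.comm hu, mul_assoc y u, hc, ← mul_assoc y d',
      mul_inv_cancel_right, ← h.sy.comm h2, mul_assoc, ← mul_assoc y, h.yy, one_mul]
  have e3 := h.f1 (e2 ▸ Q.mul_mem h1 h1')
  rw [e2] at e3
  rw [← inv_eq_of_mul_eq_one_right e3, inv_eq_of_mul_eq_one_right (h.d_sq h1 h2)]

theorem card_d (ha : ∀ u ∈ R, ⁅z, u⁆ ≠ y) : Nat.card ↥(Q ⊓ R) ≤ 4 := by
  classical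
  by_cases hb : Q ⊓ R = ⊥
  · rw [hb]; simp
  obtain ⟨⟨d, h1, h2⟩, hd⟩ := (ne_bot_iff_exists_ne_one).1 hb
  have hd' : d ≠ 1 := fun e => hd (Subtype.ext e)
  obtain ⟨u, hu, e⟩ := h.alpha_d ha h1 h2 hd'
  have i1 := PGroup.relIndex_centralizer_singleton_le (S := Q ⊓ R) (M := zpowers y) (x := u)
    fun g hg => h.sy.commutator_mem hu hg.2
  rw [h.sy.card_zpowers, ← inf_relIndex_right] at i1
  have i2 : Nat.card ↥(centralizer ({u} : Set G) ⊓ (Q ⊓ R)) ≤ 2 := by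
    have : ((centralizer ({u} : Set G) ⊓ (Q ⊓ R) : Subgroup G) : Set G) ⊆ {1, d} := by
      intro x hx
      by_cases hx1 : x = 1
      · exact Or.inl hx1
      · exact Or.inr (h.cross ha hu h1 h2 e hx.2.1 hx.2.2 hx1
          (mem_centralizer_singleton_iff.1 hx.1).symm)
    calc _ = ((centralizer ({u} : Set G) ⊓ (Q ⊓ R) : Subgroup G) : Set G).ncard :=
          Nat.card_coe_set_eq _
      _ ≤ ({1, d} : Set G).ncard := Set.ncard_le_ncard this (Set.toFinite _)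
      _ ≤ 2 := (Set.ncard_insert_le _ _).trans (by simp)
  rw [← card_mul_relIndex (inf_le_right : centralizer ({u} : Set G) ⊓ (Q ⊓ R) ≤ Q ⊓ R)]
  exact Nat.mul_le_mul i2 i1

/-- type `β` -/
theorem beta_dual {e x : G} (he : e ∈ R) (hez : ⁅z, e⁆ = y) (hx : x ∈ R)
    (hc : ∀ b ∈ R, b * z = z * b → b * x = x * b) (hxe : e * x = x * e) :
    ∃ u ∈ R, x = ⁅z, u⁆ := by
  obtain ⟨u, hu, e1 | e1⟩ := dual h.sy h.r.es h.zN hx fun q hq hq' => by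
    rcases h.sy.mem_iff.1 hq' with h1 | h1
    · exact hc q hq (commutatorElement_eq_one_iff_mul_comm.1 h1).symm
    · have h2 : ⁅z, q * e⁆ = 1 := by
        rw [commutator_mul', h1, hez, h.sy.comm hq, mul_inv_cancel_right, h.yy]
      exact ((cm_mul h.sy hq he hx).1 (hc _ (R.mul_mem hq he)
        (commutatorElement_eq_one_iff_mul_comm.1 h2).symm)).2 hxe
  · exact ⟨u, hu, e1⟩
  · refine ⟨e * u, R.mul_mem he hu, ?_⟩
    rw [commutator_mul', hez, ← cm_commutator h.sy h.zN he (hez ▸ mem_zpowers y) hu,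
      mul_inv_cancel_right, e1]

theorem beta_d {e d : G} (he : e ∈ R) (hez : ⁅z, e⁆ = y) (h1 : d ∈ Q) (h2 : d ∈ R)
    (hc : e * d = d * e) : d = 1 := by
  obtain ⟨u, -, e1⟩ := h.beta_dual he hez h2 (fun b hb hbz => (h.d_comm h1 h2 hb hbz).symm) hc
  exact e1.trans (h.f1 (e1 ▸ h1))

theorem ab_mem {a b : G} (ha : a ∈ Q) (hay : a * y = y * a) (hb : b ∈ R) (hbz : b * z = z * b) :
    ⁅a, b⁆ ∈ Q ∧ ⁅a, b⁆ ∈ R :=
  ⟨commutator_mem_of_mem_normalizer' (h.normQ hbz) ha,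
    commutator_mem_of_mem_normalizer (h.normR hay) hb⟩

theorem swap_card {s : G} (h1 : s * z * s⁻¹ = y) (h2 : s * y * s⁻¹ = z) :
    Nat.card ↥(Q ⊓ centralizer {y}) = Nat.card ↥(R ⊓ centralizer {z}) := by
  have e : s ⋆ Q = R := by
    have := h.same (u := s) (e := 1) (by rw [h1]; group)
    rwa [conj_one] at this
  rw [← card_conj s, conj_inf, e, map_conj_centralizer_singleton, h2]

/-- counting lemma -/
theorem count {u : G} (hu : u ∈ R)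
    (hA : ∀ a ∈ Q, a * y = y * a → ⁅a, u⁆ * z = z * ⁅a, u⁆) {I : Set G}
    (hI : ∀ a ∈ Q, a * y = y * a → ∀ d ∈ Q, d ∈ R → ⁅a, u⁆ * d ∈ I) :
    Nat.card ↥(Q ⊓ centralizer {y}) * Nat.card ↥(Q ⊓ R) ≤ Nat.card ↥(Q ⊓ u ⋆ Q) * I.ncard := by
  classical
  let θ : ↥(Q ⊓ centralizer {y}) × ↥(Q ⊓ R) → I := fun p =>
    ⟨⁅(p.1 : G), u⁆ * p.2, hI _ p.1.2.1 (mem_centralizer_singleton_iff.1 p.1.2.2) _ p.2.2.1 p.2.2.2⟩
  let σ : I → ↥(Q ⊓ centralizer {y}) × ↥(Q ⊓ R) := Function.invFun θ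
  have hσ : ∀ p, θ (σ (θ p)) = θ p := fun p => Function.invFun_eq ⟨p, rfl⟩
  have key : ∀ p p' : ↥(Q ⊓ centralizer {y}) × ↥(Q ⊓ R), θ p = θ p' →
      u * ((p'.1 : G)⁻¹ * p.1) * u⁻¹ ∈ Q ⊓ u ⋆ Q := by
    rintro ⟨⟨a, ha, hay⟩, d, hd1, hd2⟩ ⟨⟨a', ha', hay'⟩, d', hd1', hd2'⟩ e
    have e1 : ⁅a, u⁆ * d = ⁅a', u⁆ * d' := congrArg Subtype.val e
    have hx : a'⁻¹ * a ∈ Q := Q.mul_mem (Q.inv_mem ha') ha
    refine ⟨?_, conj_mem_conj.2 hx⟩
    have hay2 := mem_centralizer_singleton_iff.1 hay'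
    have hc := h.d_comm (Q.mul_mem hd1' (Q.inv_mem hd1)) (R.mul_mem hd2' (R.inv_mem hd2))
      (commutator_mem_of_mem_normalizer (h.normR hay2) hu) (hA a' ha' hay2)
    have e2 : ⁅a, u⁆ = d' * d⁻¹ * ⁅a', u⁆ := by rw [hc, ← mul_assoc, ← e1, mul_inv_cancel_right]
    have e3 : u * (a'⁻¹ * a) * u⁻¹ = (a'⁻¹ * (d' * d⁻¹) * a')⁻¹ * (a'⁻¹ * a) := by
      calc u * (a'⁻¹ * a) * u⁻¹ = (a'⁻¹ * (⁅a, u⁆ * ⁅a', u⁆⁻¹) * a')⁻¹ * (a'⁻¹ * a) := by
            simp only [commutatorElement_def]; group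
        _ = _ := by rw [e2, mul_inv_cancel_right]
    change u * (a'⁻¹ * a) * u⁻¹ ∈ Q
    rw [e3]
    exact Q.mul_mem (Q.inv_mem (Q.mul_mem (Q.mul_mem (Q.inv_mem ha')
      (Q.mul_mem hd1' (Q.inv_mem hd1))) ha')) hx
  let F : ↥(Q ⊓ centralizer {y}) × ↥(Q ⊓ R) → ↥(Q ⊓ u ⋆ Q) × I := fun p =>
    (⟨_, key p (σ (θ p)) (hσ p).symm⟩, θ p)
  have hF : Function.Injective F := by
    intro p p' e
    have e1 : θ p = θ p' := congrArg Prod.snd e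
    have e2 : u * (((σ (θ p)).1 : G)⁻¹ * p.1) * u⁻¹ = u * (((σ (θ p')).1 : G)⁻¹ * p'.1) * u⁻¹ :=
      congrArg (fun x => (x.1 : G)) e
    rw [e1, mul_left_inj, mul_right_inj, mul_right_inj] at e2
    have e3 : ⁅(p.1 : G), u⁆ * p.2 = ⁅(p'.1 : G), u⁆ * p'.2 := congrArg Subtype.val e1
    rw [e2, mul_right_inj] at e3
    exact Prod.ext (Subtype.ext e2) (Subtype.ext e3)
  have := Nat.card_le_card_of_injective F hF
  rwa [Nat.card_prod, Nat.card_prod, Nat.card_coe_set_eq] at this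

end Pr

end Cfsg.Lib.LXT
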