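import Cfsg.Agent.Lib.LXT.C

/-!
# Commuting conjugates of a weakly closed large extraspecial involution, II
-/

namespace Cfsg.Lib.LXT

open Subgroup Cfsg.Lib.ES Cfsg.Lib.Transfer
open scoped commutatorElement

set_option linter.style.haveILetI false
set_option linter.unusedSectionVars false

variable {G : Type*} [Group G] [Finite G] {Q R : Subgroup G} {z y : G} {n : ℕ}

theorem card_le_two_mul {X B : Subgroup G} {u : G} (h : ∀ v ∈ X, v ∈ B ∨ v * u ∈ B) :
    Nat.card X ≤ 2 * Nat.card B := by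
  have h1 : (X : Set G) ⊆ (B : Set G) ∪ (fun b => b * u⁻¹) '' (B : Set G) := fun v hv =>
    (h v hv).imp id fun h2 => ⟨_, h2, mul_inv_cancel_right v u⟩
  have h2 := (Set.ncard_le_ncard h1 (Set.toFinite _)).trans (Set.ncard_union_le _ _)
  have h3 := Set.ncard_image_le (f := fun b => b * u⁻¹) (Set.toFinite (B : Set G))
  have h4 : Nat.card X = (X : Set G).ncard := Nat.card_coe_set_eq _
  have h5 : Nat.card B = (B : Set G).ncard := Nat.card_coe_set_eq _
  omega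

theorem _root_.Cfsg.Lib.ES.Sy.card_le_two_mul (h : Sy Q z) {X : Subgroup G} (hX : X ≤ Q) {d : G}
    (hd : d ∈ Q) : Nat.card X ≤ 2 * Nat.card ↥(X ⊓ centralizer {d}) := by
  by_cases hc : ∀ v ∈ X, v * d = d * v
  · exact LXT.card_le_two_mul (u := 1) fun v hv =>
      Or.inl ⟨hv, mem_centralizer_singleton_iff.2 (hc v hv)⟩
  push Not at hc
  obtain ⟨u, hu, hud⟩ := hc
  refine LXT.card_le_two_mul (u := u) fun v hv => ?_
  by_cases hv' : v * d = d * v
  · exact Or.inl ⟨hv, mem_centralizer_singleton_iff.2 hv'⟩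
  · exact Or.inr ⟨X.mul_mem hv hu, mem_centralizer_singleton_iff.2
      ((cm_mul h (hX hv) (hX hu) hd).2 (iff_of_false hv' hud))⟩

namespace Pr

variable (h : Pr n Q R z y)
include h

theorem exists_d {a : G} (ha : a ∈ Q) (hay : a * y = y * a) (haa : a * a = z) :
    ∃ d ∈ Q, d ∈ R ∧ d ≠ 1 := by
  by_contra hh
  push Not at hh
  have h1 := commutator_mem_of_sq h.sy (h.normR hay) hay haa h.zz fun q hq hqz =>
    (commutatorElement_eq_one_iff_mul_comm.1
      (hh _ (h.ab_mem ha hay hq hqz).1 (h.ab_mem ha hay hq hqz).2)).symm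
  haveI : Fact (Nat.Prime 2) := ⟨Nat.prime_two⟩
  obtain ⟨u, hu, hu'⟩ := exists_inv_mul_mem_centralizer h.r.es (g := z) fun x hx => by
    rw [inf_centralizer_eq_zpowers h.r.es h.sy.mem h.sy.ne_one h.sy.cent]; exact h1 x hx
  exact h.z_not_mem ((R.mul_mem_cancel_left (R.inv_mem hu)).1 (h.r.lg.cen_le hu'))

theorem f2 {a : G} (ha : a ∈ Q) (hay : a * y = y * a) (haa : a * a = z)
    (hself : ∀ x ∈ R, (∀ b ∈ R, b * z = z * b → b * x = x * b) → x * z = z * x) {v : G} (hv : v ∈ R)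
    (hvd : ∀ d ∈ Q, d ∈ R → v * d = d * v) :
    ⁅z, v⁆ = 1 ∨ ∃ d ∈ Q, d ∈ R ∧ ⁅z, v⁆ = y * d := by
  have haN := h.normR hay
  have hk : ⁅a, v⁆ ∈ R := commutator_mem_of_mem_normalizer haN hv
  have hav : a * v * a⁻¹ ∈ R := (mem_normalizer_iff.1 haN v).1 hv
  have hkz : ⁅a, v⁆ * z = z * ⁅a, v⁆ := hself _ hk fun b hb hbz => by
    obtain ⟨m1, m2⟩ := h.ab_mem (Q.inv_mem ha) (cm_inv.2 hay) hb hbz
    have e : b = a * (⁅a⁻¹, b⁆ * b) * a⁻¹ := by simp only [commutatorElement_def]; group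
    rw [eq_comm, commutatorElement_def, cm_mul h.sy hav (R.inv_mem hv) hb, cm_inv]
    nth_rw 1 2 [e]
    rw [cm_conj, eq_comm, cm_mul h.sy m2 hb hv, eq_comm (a := v * b)]
    simp [(hvd _ m1 m2).symm]
  have e : ⁅z, v⁆ = ⁅a, v⁆ ^ 2 * (⁅a, v⁆⁻¹ ^ 2 * ⁅a, ⁅a, v⁆⁆ * ⁅a, v⁆ ^ 2) := by
    rw [← haa]; simp only [commutatorElement_def, sq]; group
  obtain ⟨m1, m2⟩ := h.ab_mem ha hay hk hkz
  have e2 : ⁅a, v⁆⁻¹ ^ 2 * ⁅a, ⁅a, v⁆⁆ * ⁅a, v⁆ ^ 2 = ⁅a, ⁅a, v⁆⁆ := by
    have := Commute.pow_right (h.d_comm m1 m2 hk hkz) 2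
    rw [mul_assoc, this.eq, inv_pow, inv_mul_cancel_left]
  rw [e2] at e
  rcases h.sy.mem_iff.1 (h.sy.sq_mem _ hk) with e3 | e3 <;> rw [e3] at e
  · rw [one_mul] at e; exact Or.inl (h.f1 (e ▸ m1))
  · exact Or.inr ⟨_, m1, m2, e⟩

theorem alpha_of_sq {a : G} (ha : a ∈ Q) (hay : a * y = y * a) (haa : a * a = z) :
    ∀ u ∈ R, ⁅z, u⁆ ≠ y := by
  intro e he hez
  obtain ⟨d, d1, d2, hd⟩ := h.exists_d ha hay haa
  have hed : e * d ≠ d * e := fun hc => hd (h.beta_d he hez d1 d2 hc)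
  have hdz : d * z = z * d := h.q.lg.toSy.comm d1
  have hcz : ∀ u ∈ R, ⁅z, u⁆ * z = z * ⁅z, u⁆ := fun u hu => by
    rcases h.sy.mem_iff.1 (h.cq0 hu) with e1 | e1
    · exact (commutatorElement_eq_one_iff_mul_comm.1 e1).symm
    · exfalso
      have e2 : ⁅z, ⁅z, u⁆ * e⁆ = 1 := by
        rw [commutator_mul', e1, hez, h.sy.comm (h.cmem hu), mul_inv_cancel_right, h.yy]
      have e3 := h.d_comm d1 d2 (R.mul_mem (h.cmem hu) he)
        (commutatorElement_eq_one_iff_mul_comm.1 e2).symm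
      exact hed (((cm_mul h.sy (h.cmem hu) he d2).1 e3.symm).1 (cm_commutator h.sy h.zN d2
        (by rw [commutatorElement_eq_one_iff_mul_comm.2 hdz.symm]; exact one_mem _) hu))
  have hself : ∀ x ∈ R, (∀ b ∈ R, b * z = z * b → b * x = x * b) → x * z = z * x := by
    intro x hx hc
    by_cases hxe : e * x = x * e
    · obtain ⟨u, hu, rfl⟩ := h.beta_dual he hez hx hc hxe
      exact hcz u hu
    · obtain ⟨u, hu, e1⟩ := h.beta_dual he hez (R.mul_mem hx d2) (fun b hb hbz => by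
        rw [← mul_assoc, hc b hb hbz, mul_assoc, ← h.d_comm d1 d2 hb hbz, mul_assoc])
        ((cm_mul h.sy hx d2 he).2 (iff_of_false (fun e1 => hxe e1.symm) fun e1 => hed e1.symm)).symm
      have e2 := hcz u hu
      rw [← e1, mul_assoc, hdz, ← mul_assoc, ← mul_assoc, mul_left_inj] at e2
      exact e2
  have hD : ∀ d' ∈ Q, d' ∈ R → d' = 1 ∨ d' = d := fun d' d1' d2' => by
    by_cases hc : e * d' = d' * e
    · exact Or.inl (h.beta_d he hez d1' d2' hc)
    · right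
      have := h.beta_d he hez (Q.mul_mem d1' d1) (R.mul_mem d2' d2)
        ((cm_mul h.sy d2' d2 he).2 (iff_of_false (fun e1 => hc e1.symm) fun e1 => hed e1.symm)).symm
      rw [eq_inv_of_mul_eq_one_left this, inv_eq_of_mul_eq_one_right (h.d_sq d1 d2)]
  have hv : ∀ v ∈ R, v * d = d * v → ⁅z, v⁆ ∈ zpowers y := fun v hv hvd => by
    rcases h.f2 ha hay haa hself hv (fun d' d1' d2' => by
      rcases hD d' d1' d2' with rfl | rfl
      · simp
      · exact hvd) with e1 | ⟨d', d1', d2', e1⟩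
    · rw [e1]; exact one_mem _
    · have e2 : ⁅z, v * e⁆ = d' := by
        rw [commutator_mul', e1, hez, h.sy.comm hv, mul_inv_cancel_right, mul_assoc,
          h.sy.comm d2', ← mul_assoc, h.yy, one_mul]
      rw [e1, ← e2, h.f1 (e2 ▸ d1'), mul_one]; exact mem_zpowers y
  haveI : Fact (Nat.Prime 2) := ⟨Nat.prime_two⟩
  obtain ⟨u, hu, hu'⟩ := exists_inv_mul_mem_centralizer h.r.es (g := z) fun x hx => by
    rw [inf_centralizer_eq_zpowers h.r.es h.sy.mem h.sy.ne_one h.sy.cent]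
    by_cases hxd : x * d = d * x
    · exact hv x hx hxd
    · have e1 := hv (x * e) (R.mul_mem hx he) ((cm_mul h.sy hx he d2).2 (iff_of_false hxd hed))
      rw [commutator_mul', hez, h.sy.comm hx, mul_inv_cancel_right] at e1
      exact ((zpowers y).mul_mem_cancel_right (mem_zpowers y)).1 e1
  exact h.z_not_mem ((R.mul_mem_cancel_left (R.inv_mem hu)).1 (h.r.lg.cen_le hu'))

theorem big_of_sq {a : G} (ha : a ∈ Q) (hay : a * y = y * a) (haa : a * a = z) :
    Nat.card R ≤ 4 * Nat.card ↥(R ⊓ centralizer {z}) := by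
  have hα := h.alpha_of_sq ha hay haa
  have hself := fun x hx hc => h.alpha_self hα (x := x) hx hc
  obtain ⟨d, d1, d2, hd⟩ := h.exists_d ha hay haa
  obtain ⟨u, hu, e⟩ := h.alpha_d hα d1 d2 hd
  have i1 := h.sy.card_le_two_mul le_rfl d2
  suffices Nat.card ↥(R ⊓ centralizer {d}) ≤ 2 * Nat.card ↥(R ⊓ centralizer {z}) by omega
  have hB : ∀ v ∈ R, ⁅z, v⁆ = 1 → v ∈ R ⊓ centralizer {z} := fun v hv e1 =>
    ⟨hv, mem_centralizer_singleton_iff.2 (commutatorElement_eq_one_iff_mul_comm.1 e1).symm⟩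
  by_cases hD : ∀ d' ∈ Q, d' ∈ R → d' = 1 ∨ d' = d
  · refine card_le_two_mul (u := u) fun v hv => ?_
    have hvd := mem_centralizer_singleton_iff.1 hv.2
    rcases h.f2 ha hay haa hself hv.1 (fun d' d1' d2' => by
      rcases hD d' d1' d2' with rfl | rfl
      · simp
      · exact hvd) with e1 | ⟨d', d1', d2', e1⟩
    · exact Or.inl (hB v hv.1 e1)
    · rcases hD d' d1' d2' with rfl | rfl
      · exact absurd (by rw [e1, mul_one]) (hα v hv.1)
      · refine Or.inr (hB _ (R.mul_mem hv.1 hu) ?_)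
        rw [commutator_mul', e1, e, ← mul_assoc v, h.sy.comm hv.1, mul_assoc y v, hvd,
          ← mul_assoc y d', mul_inv_cancel_right, h.yd_sq d1' d2']
  push Not at hD
  obtain ⟨d', d1', d2', hd', hdd⟩ := hD
  have i2 := h.sy.card_le_two_mul (inf_le_left : R ⊓ centralizer {d} ≤ R) d2'
  refine i2.trans (Nat.mul_le_mul_left _ (card_le_of_le fun v hv => hB v hv.1.1 ?_))
  have hvd := mem_centralizer_singleton_iff.1 hv.1.2
  have hvd' := mem_centralizer_singleton_iff.1 hv.2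
  have hud' : u * d' ≠ d' * u := fun hc => hdd (h.cross hα hu d1 d2 e d1' d2' hd' hc)
  have aux : ∀ x ∈ Q, x ∈ R → u * x = x * u → v * x = x * v := fun x x1 x2 hc => by
    by_cases hx : x = 1
    · simp [hx]
    · rw [h.cross hα hu d1 d2 e x1 x2 hx hc]; exact hvd
  rcases h.f2 ha hay haa hself hv.1.1 (fun x x1 x2 => by
    by_cases hc : u * x = x * u
    · exact aux x x1 x2 hc
    · have := aux _ (Q.mul_mem x1 d1') (R.mul_mem x2 d2') ((cm_mul h.sy x2 d2' hu).2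
        (iff_of_false (fun e1 => hc e1.symm) fun e1 => hud' e1.symm)).symm
      exact (((cm_mul h.sy x2 d2' hv.1.1).1 this.symm).2 hvd'.symm).symm) with e1 | ⟨x, x1, x2, e1⟩
  · exact e1
  · exact absurd ((h.cross hα hv.1.1 x1 x2 e1 d1' d2' hd' hvd').trans
      (h.cross hα hv.1.1 x1 x2 e1 d1 d2 hd hvd).symm) hdd

theorem not_abel (hn : 3 ≤ n) (hb : Nat.card R ≤ 4 * Nat.card ↥(R ⊓ centralizer {z})) :
    ¬ ∀ a ∈ R, a * z = z * a → ∀ b ∈ R, b * z = z * b → a * b = b * a := fun hc => by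
  have h1 := h.r.card_abel (X := R ⊓ centralizer {z}) inf_le_left
    ⟨h.sy.mem, mem_centralizer_singleton_iff.2 h.comm.symm⟩ fun a ha b hb =>
      hc a ha.1 (mem_centralizer_singleton_iff.1 ha.2) b hb.1 (mem_centralizer_singleton_iff.1 hb.2)
  have h2 : 2 ^ 7 ≤ Nat.card R := h.r.card ▸ Nat.pow_le_pow_right (by norm_num) (by omega)
  nlinarith

theorem exists_sq (hc : ¬ ∀ a ∈ R, a * z = z * a → ∀ b ∈ R, b * z = z * b → a * b = b * a) :
    ∃ b ∈ R, b * z = z * b ∧ b * b = y := by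
  by_contra hh
  push Not at hh
  have h1 : ∀ b ∈ R, b * z = z * b → b * b = 1 := fun b hb hbz =>
    (h.sy.mem_iff.1 (sq b ▸ h.sy.sq_mem b hb)).resolve_right (hh b hb hbz)
  refine hc fun a ha haz b hb hbz => ?_
  have h2 := h1 (a * b) (R.mul_mem ha hb) (by rw [mul_assoc, hbz, ← mul_assoc, haz, mul_assoc])
  rw [eq_inv_of_mul_eq_one_left h2, mul_inv_rev, inv_eq_of_mul_eq_one_right (h1 a ha haz),
    inv_eq_of_mul_eq_one_right (h1 b hb hbz)]

/-- the triangle configuration -/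
theorem tri {u e : G} (hu : u ∈ R) (he : e ∈ Q) (hue : u * z * u⁻¹ = e * y * e⁻¹)
    (hA : ∀ a ∈ Q, a * y = y * a → ⁅a, u⁆ * z = z * ⁅a, u⁆)
    (hD : ∀ d ∈ Q, d ∈ R → u * d = d * u) {b : G} (hb : b ∈ R) (hbz : b * z = z * b) :
    u * b * u⁻¹ = b⁻¹ := by
  have hez : e * z = z * e := h.q.lg.toSy.comm he
  have huy : u * y = y * u := h.sy.comm hu
  have hee : e * e * y = y * (e * e) := (h.symm.sq_comm h.comm.symm he).symm
  have huu : u * u * z = z * (u * u) := (h.sq_comm h.comm hu).symm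
  have c1 := h.swap_card (s := e * u * e⁻¹) (by
      calc e * u * e⁻¹ * z * (e * u * e⁻¹)⁻¹ = e * (u * (e⁻¹ * (z * e)) * u⁻¹) * e⁻¹ := by group
        _ = e * e * y * (e * e)⁻¹ := by rw [← hez, inv_mul_cancel_left, hue]; group
        _ = y := by rw [hee]; group) (by
      calc e * u * e⁻¹ * y * (e * u * e⁻¹)⁻¹
            = e * (u * (e * ((e * e)⁻¹ * (y * (e * e))) * e⁻¹) * u⁻¹) * e⁻¹ := by group
        _ = e * (u * u * z * (u * u)⁻¹) * e⁻¹ := by rw [← hee, inv_mul_cancel_left, ← hue]; group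
        _ = z := by rw [huu, mul_inv_cancel_right, hez]; group)
  have c2 : Nat.card ↥(Q ⊓ u ⋆ Q) = Nat.card ↥(Q ⊓ R) := by
    rw [h.same hue, ← card_conj e (Q ⊓ R), conj_inf, conj_eq_self_of_mem he]
  have c3 := h.count hu hA (I := {b | b ∈ R ⊓ centralizer {z} ∧ u * b * u⁻¹ = b⁻¹})
    fun a ha hay d d1 d2 => by
      have hk : ⁅a, u⁆ ∈ R := commutator_mem_of_mem_normalizer (h.normR hay) hu
      refine ⟨⟨R.mul_mem hk d2, mem_centralizer_singleton_iff.2 ?_⟩, ?_⟩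
      · rw [mul_assoc, h.q.lg.toSy.comm d1, ← mul_assoc, hA a ha hay, mul_assoc]
      · rw [← h.d_comm d1 d2 hk (hA a ha hay), mul_inv_rev, ← mul_assoc, hD d d1 d2, mul_assoc d,
          mul_assoc d, conj_commutator_inv (h.sq_comm hay hu),
          inv_eq_of_mul_eq_one_right (h.d_sq d1 d2)]
        exact (Commute.inv_right (h.d_comm d1 d2 hk (hA a ha hay))).eq
  rw [c1, c2, mul_comm] at c3
  have c4 := Nat.le_of_mul_le_mul_left c3 Nat.card_pos
  have c5 : {b | b ∈ R ⊓ centralizer {z} ∧ u * b * u⁻¹ = b⁻¹} =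
      ((R ⊓ centralizer {z} : Subgroup G) : Set G) :=
    Set.eq_of_subset_of_ncard_le (fun x hx => hx.1) c4 (Set.toFinite _)
  have : b ∈ ((R ⊓ centralizer {z} : Subgroup G) : Set G) :=
    ⟨hb, mem_centralizer_singleton_iff.2 hbz⟩
  rw [← c5] at this
  exact this.2

theorem uconj {u d : G} (e : ⁅z, u⁆ = y * d) : u * z * u⁻¹ = z * (y * d) := by
  rw [← e, commutatorElement_def, h.q.lg.toSy.inv_eq, ← mul_assoc, ← mul_assoc, ← mul_assoc, h.zz,
    one_mul]

theorem comm_of_conj {a u : G} (haz : a * z = z * a) (huu : u * u * z = z * (u * u))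
    (haw : a * (u * z * u⁻¹) = u * z * u⁻¹ * a) : ⁅a, u⁆ * z = z * ⁅a, u⁆ := by
  have e1 : u⁻¹ * z * u = u * z * u⁻¹ := by
    calc u⁻¹ * z * u = u⁻¹ * (z * (u * u)) * u⁻¹ := by group
      _ = _ := by rw [← huu]; group
  have e2 : u * a⁻¹ * u⁻¹ * z = z * (u * a⁻¹ * u⁻¹) := by
    calc u * a⁻¹ * u⁻¹ * z = u * (a⁻¹ * (u⁻¹ * z * u)) * u⁻¹ := by group
      _ = u * ((u⁻¹ * z * u) * a⁻¹) * u⁻¹ := by rw [e1, cm_inv.2 haw]
      _ = _ := by group
  calc ⁅a, u⁆ * z = a * (u * a⁻¹ * u⁻¹ * z) := by simp only [commutatorElement_def]; group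
    _ = _ := by rw [e2, ← mul_assoc, haz]; simp only [commutatorElement_def]; group

/-- in the non-elementary case `D` has two distinct involutions -/
theorem two_d (hn : 3 ≤ n) {a : G} (ha : a ∈ Q) (hay : a * y = y * a) (haa : a * a = z) :
    ∃ d ∈ Q, d ∈ R ∧ d ≠ 1 ∧ ∃ d' ∈ Q, d' ∈ R ∧ d' ≠ 1 ∧ d' ≠ d := by
  have hα := h.alpha_of_sq ha hay haa
  have hna := h.not_abel hn (h.big_of_sq ha hay haa)
  obtain ⟨b, hb, hbz, hbb⟩ := h.exists_sq hna
  have hα' := h.symm.alpha_of_sq hb hbz hbb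
  obtain ⟨d, d1, d2, hd⟩ := h.exists_d ha hay haa
  refine ⟨d, d1, d2, hd, ?_⟩
  by_contra hD
  push Not at hD
  obtain ⟨u, hu, e⟩ := h.alpha_d hα d1 d2 hd
  obtain ⟨v, hv, e'⟩ := h.symm.alpha_d hα' d2 d1 hd
  have key := fun b hb hbz => h.tri (b := b) hu hv
    (by rw [h.uconj e, h.symm.uconj e', ← mul_assoc, h.comm, mul_assoc])
    (fun a ha hay => h.comm_of_conj (h.q.lg.toSy.comm ha) (h.sq_comm h.comm hu).symm (by
      rw [h.uconj e, ← mul_assoc, h.q.lg.toSy.comm ha, mul_assoc, ← mul_assoc a, hay, mul_assoc,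
        ← h.symm.d_comm d2 d1 ha hay]; group))
    (fun d' d1' d2' => by
      by_cases hd' : d' = 1
      · simp [hd']
      · rw [hD d' d1' d2' hd']; exact h.ud_comm hu d1 d2 e) hb hbz
  refine hna fun a ha haz b hb hbz => ?_
  have e1 := key (a * b) (R.mul_mem ha hb) (by rw [mul_assoc, hbz, ← mul_assoc, haz, mul_assoc])
  rw [show u * (a * b) * u⁻¹ = (u * a * u⁻¹) * (u * b * u⁻¹) by group, key a ha haz, key b hb hbz,
    ← mul_inv_rev, inv_inj] at e1
  exact e1.symm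

end Pr

end Cfsg.Lib.LXT
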