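import Cfsg.Agent.Lib.LXT.D

/-!
# Commuting conjugates of a weakly closed large extraspecial involution, III
-/

namespace Cfsg.Lib.LXT

open Subgroup Cfsg.Lib.ES Cfsg.Lib.Transfer
open scoped commutatorElement

set_option linter.style.haveILetI false
set_option linter.unusedSectionVars false

variable {G : Type*} [Group G] [Finite G] {Q R K : Subgroup G} {z y : G} {n : ℕ}

namespace Pr

variable (h : Pr n Q R z y)
include h

theorem uconj' (u : G) : u * z * u⁻¹ = z * ⁅z, u⁆ := by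
  rw [commutatorElement_def, h.q.lg.toSy.inv_eq, ← mul_assoc, ← mul_assoc, ← mul_assoc, h.zz,
    one_mul]

theorem swap {u : G} (hc : ⁅z, u⁆ * z = z * ⁅z, u⁆) (h1 : ⁅z, u⁆ ≠ 1) :
    Pr n Q (u ⋆ Q) z (u * z * u⁻¹) where
  q := h.q
  cj := ⟨u, rfl, rfl⟩
  comm := by rw [h.uconj', mul_assoc, hc]
  ne := by rw [h.uconj']; exact fun e => h1 (mul_eq_left.1 e)

theorem alpha_of_not_conj (hc : ∀ g : G, g * z * g⁻¹ ≠ z * y) :
    (∀ u ∈ R, ⁅z, u⁆ ≠ y) ∧ ∀ u ∈ Q, ⁅y, u⁆ ≠ z := by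
  refine ⟨fun u _ e => hc u (by rw [h.uconj', e]), fun u _ e => ?_⟩
  obtain ⟨g, hg, -⟩ := h.cj
  refine hc (u * g) ?_
  calc u * g * z * (u * g)⁻¹ = u * (g * z * g⁻¹) * u⁻¹ := by group
    _ = z * y := by rw [hg, h.symm.uconj', e, h.comm]

theorem swap_alpha {u : G} (hu : u ∈ R) (hc : ⁅z, u⁆ * z = z * ⁅z, u⁆) (h1 : ⁅z, u⁆ ≠ 1)
    (h2 : ⁅z, u⁆ ≠ y) : (∀ v ∈ u ⋆ Q, ⁅z, v⁆ ≠ u * z * u⁻¹) ∧ ∀ v ∈ Q, ⁅u * z * u⁻¹, v⁆ ≠ z := by
  refine (h.swap hc h1).alpha_of_not_conj fun g e => h2 ?_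
  rw [h.uconj' u, ← mul_assoc, h.zz, one_mul] at e
  obtain ⟨k, hk, -⟩ := h.symm.cj
  have e2 : g * k * y * (g * k)⁻¹ = ⁅z, u⁆ := by rw [← e, ← hk]; group
  rw [← e2]
  exact h.r.wc _ (e2 ▸ h.cmem hu)

/-- the two centralizers of a swapped pair are conjugate -/
theorem swap_el {u : G} (hu : u ∈ R) :
    (∀ a ∈ Q, a * (u * z * u⁻¹) = u * z * u⁻¹ * a → a * a = 1) ↔
      ∀ b ∈ u ⋆ Q, b * z = z * b → b * b = 1 := by
  have huu : u * (u * z * u⁻¹) * u⁻¹ = z := by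
    calc _ = u * u * z * (u * u)⁻¹ := by group
      _ = z := by rw [← h.sq_comm h.comm hu]; group
  have key : ∀ a : G, (u * a * u⁻¹ * (u * a * u⁻¹) = 1 ↔ a * a = 1) := fun a => by
    rw [show u * a * u⁻¹ * (u * a * u⁻¹) = u * (a * a) * u⁻¹ by group, conj_eq_one_iff]
  constructor
  · rintro h1 _ ⟨a, ha, rfl⟩ hb
    change u * a * u⁻¹ * z = z * (u * a * u⁻¹) at hb
    exact (key a).2 (h1 a ha (by rw [← cm_conj (t := u), huu]; exact hb))
  · intro h1 a ha hb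
    exact (key a).1 (h1 _ (conj_mem_conj.2 ha) (by rw [← cm_conj (t := u), huu] at hb; exact hb))

theorem abel_of_el (hB : ∀ b ∈ R, b * z = z * b → b * b = 1) :
    ∀ a ∈ R, a * z = z * a → ∀ b ∈ R, b * z = z * b → a * b = b * a := by
  by_contra hc
  obtain ⟨b, hb, hbz, e⟩ := h.exists_sq hc
  exact h.sy.ne_one (e ▸ hB b hb hbz)

theorem card_el (hB : ∀ b ∈ R, b * z = z * b → b * b = 1) (hα : ∀ u ∈ R, ⁅z, u⁆ ≠ y) :
    Nat.card ↥(R ⊓ centralizer {z}) * Nat.card ↥(R ⊓ centralizer {z}) = 2 * Nat.card R := by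
  rw [← h.r.card_mul (X := R ⊓ centralizer {z}) inf_le_left
    ⟨h.sy.mem, mem_centralizer_singleton_iff.2 h.comm.symm⟩]
  congr 3
  refine le_antisymm (le_inf inf_le_left fun a ha b hb => h.abel_of_el hB b hb.1
    (mem_centralizer_singleton_iff.1 hb.2) a ha.1 (mem_centralizer_singleton_iff.1 ha.2))
    fun x hx => ⟨hx.1, mem_centralizer_singleton_iff.2 (h.alpha_self hα hx.1 fun b hb hbz =>
      hx.2 b ⟨hb, mem_centralizer_singleton_iff.2 hbz⟩)⟩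

theorem count_el (hB : ∀ b ∈ R, b * z = z * b → b * b = 1) {u : G} (hu : u ∈ R)
    (hA : ∀ a ∈ Q, a * y = y * a → ⁅a, u⁆ * z = z * ⁅a, u⁆)
    (hD : ∀ d ∈ Q, d ∈ R → u * d = d * u) :
    Nat.card ↥(Q ⊓ centralizer {y}) * Nat.card ↥(Q ⊓ R) ≤
      Nat.card ↥(Q ⊓ u ⋆ Q) * Nat.card ↥(R ⊓ centralizer {z} ⊓ centralizer {u}) :=
  h.count hu hA (I := ((R ⊓ centralizer {z} ⊓ centralizer {u} : Subgroup G) : Set G))
    fun a ha hay d d1 d2 => by
      have hk : ⁅a, u⁆ ∈ R := commutator_mem_of_mem_normalizer (h.normR hay) hu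
      refine mul_mem ⟨⟨hk, mem_centralizer_singleton_iff.2 (hA a ha hay)⟩,
        mem_centralizer_singleton_iff.2 ?_⟩ ⟨⟨d2, h.q.lg.cent d1⟩,
        mem_centralizer_singleton_iff.2 (hD d d1 d2).symm⟩
      have := conj_commutator_inv (h.sq_comm hay hu)
      rw [inv_eq_of_mul_eq_one_right (hB _ hk (hA a ha hay)), mul_inv_eq_iff_eq_mul] at this
      exact this.symm

variable (hn : 3 ≤ n) (hA : ∀ a ∈ Q, a * y = y * a → a * a = 1)
  (hB : ∀ b ∈ R, b * z = z * b → b * b = 1) (hα : ∀ u ∈ R, ⁅z, u⁆ ≠ y) (hα' : ∀ u ∈ Q, ⁅y, u⁆ ≠ z)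
include hA hB hα hα'

theorem ea_step {u : G} (hu : u ∈ R) (huz : u * z ≠ z * u) (hD : ∀ d ∈ Q, d ∈ R → u * d = d * u) :
    2 * Nat.card ↥(Q ⊓ R) ≤ Nat.card ↥(Q ⊓ u ⋆ Q) := by
  haveI : Fact (Nat.Prime 2) := ⟨Nat.prime_two⟩
  have hc := h.cmem hu
  have hcz := h.alpha_comm hα hc (h.cq0 hu)
  have c1 := h.count_el hB hu (fun a ha hay => by
    have haz := h.q.lg.toSy.comm ha
    refine h.comm_of_conj haz (h.sq_comm h.comm hu).symm ?_
    obtain ⟨m1, m2⟩ := h.ab_mem ha hay hc hcz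
    have hu' : a * u * a⁻¹ ∈ R := (mem_normalizer_iff.1 (h.normR hay) u).1 hu
    have e1 : ⁅z, a * u * a⁻¹⁆ = ⁅a, ⁅z, u⁆⁆ * ⁅z, u⁆ := by
      calc ⁅z, a * u * a⁻¹⁆ = ⁅a * z * a⁻¹, a * u * a⁻¹⁆ := by rw [haz, mul_inv_cancel_right]
        _ = _ := by simp only [commutatorElement_def]; group
    have e2 := h.cinv hu'
    rw [inv_eq_of_mul_eq_one_right (hB _ (h.cmem hu') (h.alpha_comm hα (h.cmem hu') (h.cq0 hu'))),
      mul_inv_eq_iff_eq_mul, e1, eq_comm, cm_mul h.sy m2 hc hu'] at e2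
    have e3 : ⁅a, ⁅z, u⁆⁆ * (a * u * a⁻¹) = a * u * a⁻¹ * ⁅a, ⁅z, u⁆⁆ := by
      have e4 := h.symm.d_comm m2 m1 ha hay
      rw [mul_assoc a, mul_assoc a, mul_assoc u, (cm_inv.2 e4.symm), ← mul_assoc u, hD _ m1 m2,
        ← mul_assoc, ← mul_assoc, ← mul_assoc, ← mul_assoc, e4]
    have e5 : ⁅z, a * u * a⁻¹ * u⁆ = ⁅a, ⁅z, u⁆⁆ := by
      rw [commutator_mul', e1, ← e2.1 e3, mul_inv_cancel_right, mul_assoc, hB _ hc hcz, mul_one]
    have e6 := h.f1 (e5 ▸ m1)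
    rw [e5, commutatorElement_eq_one_iff_mul_comm] at e6
    rw [h.uconj', ← mul_assoc, haz, mul_assoc, e6, mul_assoc]) hD
  have c2 : 2 * Nat.card ↥(R ⊓ centralizer {z} ⊓ centralizer {u}) ≤
      Nat.card ↥(R ⊓ centralizer {z}) :=
    PGroup.mul_card_le_of_lt (h.sy.isPGroup.to_le inf_le_left) (lt_of_le_of_ne inf_le_left fun e =>
      huz (h.alpha_self hα hu fun b hb hbz => mem_centralizer_singleton_iff.1
        (inf_eq_left.1 e ⟨hb, mem_centralizer_singleton_iff.2 hbz⟩)))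
  have c3 := h.card_el hB hα
  have c4 := h.symm.card_el hA hα'
  rw [h.q.card, ← h.r.card, ← c3, Nat.mul_self_inj] at c4
  rw [c4] at c1
  have c5 : 0 < Nat.card ↥(R ⊓ centralizer {z}) := Nat.card_pos
  nlinarith

include hn

theorem ea_le : Nat.card ↥(Q ⊓ R) ≤ 2 := by
  obtain ⟨u, hu, hD, huz⟩ : ∃ u ∈ R, (∀ d ∈ Q, d ∈ R → u * d = d * u) ∧ u * z ≠ z * u := by
    by_contra hh
    push Not at hh
    refine h.not_abel hn ?_ (h.abel_of_el hB)
    have c1 := h.r.card_mul (X := Q ⊓ R ⊔ zpowers y) (sup_le inf_le_right h.sy.zpowers_le)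
      (mem_sup_right (mem_zpowers y))
    have c2 : Nat.card ↥(Q ⊓ R ⊔ zpowers y) ≤ 2 * Nat.card ↥(Q ⊓ R) :=
      card_le_two_mul (u := y) fun v hv => by
        obtain ⟨d, hd, x, hx, rfl⟩ := exists_mul_of_mem_sup (N := Q ⊓ R) (H := zpowers y)
          ((h.sy.zpowers_le_centralizer.trans (centralizer_le (SetLike.coe_mono inf_le_right))).trans
            (centralizer_le_normalizer _)) hv
        rcases h.sy.mem_iff.1 hx with rfl | rfl
        · left; simpa using hd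
        · right; rw [mul_assoc, h.yy, mul_one]; exact hd
    have c3 := h.card_d hα
    have c4 : Nat.card ↥(R ⊓ centralizer ((Q ⊓ R ⊔ zpowers y : Subgroup G) : Set G)) ≤
        Nat.card ↥(R ⊓ centralizer {z}) := card_le_of_le fun v hv =>
      ⟨hv.1, mem_centralizer_singleton_iff.2 (hh v hv.1 fun d d1 d2 =>
        (hv.2 d (mem_sup_left ⟨d1, d2⟩)).symm)⟩
    nlinarith
  have c1 := h.ea_step hA hB hα hα' hu huz hD
  have hcz := h.alpha_comm hα (h.cmem hu) (h.cq0 hu)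
  have h1 : ⁅z, u⁆ ≠ 1 := fun e => huz (commutatorElement_eq_one_iff_mul_comm.1 e).symm
  have c2 := (h.swap hcz h1).card_d (h.swap_alpha hu hcz h1 (hα u hu)).1
  omega

theorem ea_bot {d : G} (d1 : d ∈ Q) (d2 : d ∈ R) : d = 1 := by
  by_contra hd
  have c0 := h.ea_le hn hA hB hα hα'
  have hD : ∀ x ∈ Q, x ∈ R → x = 1 ∨ x = d := fun x x1 x2 => by
    by_contra hx
    push Not at hx
    have : ({1, d, x} : Set G) ⊆ ((Q ⊓ R : Subgroup G) : Set G) := by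
      rintro _ (rfl | rfl | rfl)
      · exact one_mem _
      · exact ⟨d1, d2⟩
      · exact ⟨x1, x2⟩
    have h4 := Set.ncard_le_ncard this (Set.toFinite _)
    rw [Set.ncard_eq_three.2 ⟨_, _, _, Ne.symm hd, hx.1.symm, hx.2.symm, rfl⟩,
      ← Nat.card_coe_set_eq] at h4
    exact absurd (h4.trans c0) (by norm_num)
  obtain ⟨u, hu, e⟩ := h.alpha_d hα d1 d2 hd
  have h1 : ⁅z, u⁆ ≠ 1 := fun e1 => h.y_not_mem (by
    rw [e1] at e
    rw [eq_inv_of_mul_eq_one_left e.symm]; exact Q.inv_mem d1)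
  have hcz := h.alpha_comm hα (h.cmem hu) (h.cq0 hu)
  have c1 := h.ea_step hA hB hα hα' hu
    (fun e1 => h1 (commutatorElement_eq_one_iff_mul_comm.2 e1.symm)) fun x x1 x2 => by
      rcases hD x x1 x2 with rfl | rfl
      · simp
      · exact h.ud_comm hu x1 x2 e
  have c2 : 2 ≤ Nat.card ↥(Q ⊓ R) := by
    haveI : Nontrivial ↥(Q ⊓ R) := ⟨⟨⟨d, d1, d2⟩, 1, fun e1 => hd (congrArg Subtype.val e1)⟩⟩
    exact Finite.one_lt_card
  have hA' : ∀ a ∈ Q, a * (u * z * u⁻¹) = u * z * u⁻¹ * a → a * a = 1 := fun a ha haw => by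
    refine hA a ha (h.symm.alpha_comm hα' ha ?_)
    rw [h.uconj e, ← mul_assoc, h.q.lg.toSy.comm ha, mul_assoc, mul_assoc, mul_right_inj,
      ← h.sy.comm d2] at haw
    have : ⁅y, a⁆ = ⁅d⁻¹, a⁆ := by
      calc ⁅y, a⁆ = d⁻¹ * (d * y * a) * y⁻¹ * a⁻¹ := by simp only [commutatorElement_def]; group
        _ = _ := by rw [← haw]; simp only [commutatorElement_def]; group
    rw [this]; exact h.q.lg.toSy.commutator_mem (Q.inv_mem d1) ha
  have c3 := (h.swap hcz h1).ea_le hn hA' ((h.swap_el hu).1 hA')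
    (h.swap_alpha hu hcz h1 (hα u hu)).1 (h.swap_alpha hu hcz h1 (hα u hu)).2
  omega

theorem ea_sq {u : G} (hu : u ∈ R) (h1 : ⁅z, u⁆ ≠ 1) :
    ∃ b : G, b * z = z * b ∧ b * b = u * z * u⁻¹ := by
  by_contra hh
  push Not at hh
  have hcz := h.alpha_comm hα (h.cmem hu) (h.cq0 hu)
  have hs := h.swap hcz h1
  have hB' : ∀ b ∈ u ⋆ Q, b * z = z * b → b * b = 1 := fun b hb hbz =>
    (hs.sy.mem_iff.1 (sq b ▸ hs.sy.sq_mem b hb)).resolve_right (hh b hbz)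
  have c1 := h.ea_step hA hB hα hα' hu
    (fun e1 => h1 (commutatorElement_eq_one_iff_mul_comm.2 e1.symm)) fun x x1 x2 => by
      rw [h.ea_bot hn hA hB hα hα' x1 x2]; simp
  have c2 : Q ⊓ u ⋆ Q = ⊥ := eq_bot_iff.2 fun x hx => hs.ea_bot hn ((h.swap_el hu).2 hB') hB'
    (h.swap_alpha hu hcz h1 (hα u hu)).1 (h.swap_alpha hu hcz h1 (hα u hu)).2 hx.1 hx.2
  rw [c2, card_bot] at c1
  have : 0 < Nat.card ↥(Q ⊓ R) := Nat.card_pos
  omega

end Pr

theorem sq_mem_K (hKi : K.relIndex (centralizer ({z} : Set G)) = 2) {b : G} (hb : b * z = z * b) :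
    b * b ∈ K :=
  (mul_mem_iff_of_index_two hKi (a := ⟨b, mem_centralizer_singleton_iff.2 hb⟩)
    (b := ⟨b, mem_centralizer_singleton_iff.2 hb⟩)).2 Iff.rfl

theorem same_K (hKi : K.relIndex (centralizer ({z} : Set G)) = 2) {g g' t : G}
    (e : g * z * g⁻¹ = g' * z * g'⁻¹) (ht : t ∈ centralizer ({g * z * g⁻¹} : Set G)) :
    t ∈ g ⋆ K ↔ t ∈ g' ⋆ K := by
  have h1 : g' * g⁻¹ ∈ centralizer ({g * z * g⁻¹} : Set G) := by
    rw [mem_centralizer_singleton_iff]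
    calc g' * g⁻¹ * (g * z * g⁻¹) = g' * z * g'⁻¹ * (g' * g⁻¹) := by group
      _ = _ := by rw [← e]
  rw [← conj_mem_conj_iff hKi (inv_mem h1) ht, mem_conj, mem_conj]
  have : g⁻¹ * ((g' * g⁻¹)⁻¹ * t * (g' * g⁻¹)⁻¹⁻¹) * g = g'⁻¹ * t * g' := by group
  rw [this]

namespace Pr

variable (h : Pr n Q R z y) (hn : 3 ≤ n) (hKi : K.relIndex (centralizer ({z} : Set G)) = 2)
  (hQK : Q ≤ K)
include h hn hKi hQK

theorem alpha_K (hB : ∀ b ∈ R, b * z = z * b → b * b = 1) (hα : ∀ u ∈ R, ⁅z, u⁆ ≠ y)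
    (hc : ∀ u ∈ R, ⁅z, u⁆ ∈ K) : ∀ b ∈ R, b * z = z * b → b ∈ K := by
  haveI : Fact (Nat.Prime 2) := ⟨Nat.prime_two⟩
  have hy : y ∈ K := by
    obtain ⟨u, hu, huz⟩ : ∃ u ∈ R, u * z ≠ z * u := by
      by_contra hh
      push Not at hh
      exact h.z_not_mem (h.r.lg.cen_le fun u hu => hh u hu)
    obtain ⟨s, hs, e⟩ := h.sy.exists_conj (h.cmem hu) (by
      rw [h.r.lg.centralizer_eq h.r.es]
      exact fun e => huz (h.alpha_comm hα hu e))
    have e2 := hc _ (R.mul_mem hs hu)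
    rw [commutator_mul', e, K.mul_mem_cancel_left (hc s hs), K.mul_mem_cancel_right (hc u hu)] at e2
    exact e2
  intro b hb hbz
  obtain ⟨u, hu, e | e⟩ := h.alpha_dual hα hb fun a ha haz => h.abel_of_el hB a ha haz b hb hbz
  · exact e ▸ hc u hu
  · exact e ▸ K.mul_mem hy (hc u hu)

theorem ea_K (hA : ∀ a ∈ Q, a * y = y * a → a * a = 1) (hB : ∀ b ∈ R, b * z = z * b → b * b = 1)
    (hα : ∀ u ∈ R, ⁅z, u⁆ ≠ y) (hα' : ∀ u ∈ Q, ⁅y, u⁆ ≠ z) : ∀ b ∈ R, b * z = z * b → b ∈ K := by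
  refine h.alpha_K hn hKi hQK hB hα fun u hu => ?_
  by_cases h1 : ⁅z, u⁆ = 1
  · rw [h1]; exact one_mem _
  obtain ⟨b, hbz, e⟩ := h.ea_sq hn hA hB hα hα' hu h1
  have := sq_mem_K hKi hbz
  rwa [e, h.uconj', K.mul_mem_cancel_left (hQK h.q.lg.mem)] at this

theorem swap_K {u : G} (hu : u ∈ R) (hc : ⁅z, u⁆ * z = z * ⁅z, u⁆) (h2 : ⁅z, u⁆ ≠ y) :
    ⁅z, u⁆ ∈ K := by
  by_cases h1 : ⁅z, u⁆ = 1
  · rw [h1]; exact one_mem _
  have hs := h.swap hc h1
  rw [← K.mul_mem_cancel_left (hQK h.q.lg.mem), ← h.uconj']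
  by_cases hB : ∀ b ∈ u ⋆ Q, b * z = z * b → b * b = 1
  · exact hs.ea_K hn hKi hQK ((h.swap_el hu).2 hB) hB (h.swap_alpha hu hc h1 h2).1
      (h.swap_alpha hu hc h1 h2).2 _ hs.sy.mem hs.comm.symm
  · push Not at hB
    obtain ⟨b, hb, hbz, e⟩ := hB
    rw [← (hs.sy.mem_iff.1 (sq b ▸ hs.sy.sq_mem b hb)).resolve_left e]
    exact sq_mem_K hKi hbz

theorem nonel_K {a : G} (ha : a ∈ Q) (hay : a * y = y * a) (haa : a * a = z) :
    ∀ b ∈ R, b * z = z * b → b ∈ K := by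
  have hα := h.alpha_of_sq ha hay haa
  obtain ⟨b₀, hb₀, hb₀z, hbb⟩ := h.exists_sq (h.not_abel hn (h.big_of_sq ha hay haa))
  have hα' := h.symm.alpha_of_sq hb₀ hb₀z hbb
  obtain ⟨d, d1, d2, hd, d', d1', d2', hd', hdd⟩ := h.two_d hn ha hay haa
  have hyK : y ∈ K := hbb ▸ sq_mem_K hKi hb₀z
  obtain ⟨g, hg, hgQ⟩ := h.cj
  have hRK : R ≤ g ⋆ K := hgQ ▸ conj_mono g hQK
  have hzK : z ∈ g ⋆ K := by
    rw [← haa, mul_mem_conj_iff hKi (hg ▸ mem_centralizer_singleton_iff.2 hay)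
      (hg ▸ mem_centralizer_singleton_iff.2 hay)]
  intro b hb hbz
  have hby : b * y = y * b := h.sy.comm hb
  have key : ∀ x ∈ Q, x ∈ R → x ≠ 1 → ∀ e ∈ Q, ⁅y, e⁆ = z * x →
      b⁻¹ * (e⁻¹ * b * e) ∈ centralizer ({g * z * g⁻¹} : Set G) ∧
        (b ∈ K ↔ b⁻¹ * (e⁻¹ * b * e) ∈ g ⋆ K) := by
    intro x x1 x2 hx e he hey
    obtain ⟨u, hu, huz⟩ := h.alpha_d hα x1 x2 hx
    have hw : u * z * u⁻¹ = e * y * e⁻¹ := by
      rw [h.uconj huz, h.symm.uconj hey, ← mul_assoc, h.comm, mul_assoc]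
    have hbw : b ∈ centralizer ({u * z * u⁻¹} : Set G) := by
      rw [mem_centralizer_singleton_iff, h.uconj huz, ← mul_assoc, hbz, mul_assoc, ← mul_assoc b, hby,
        mul_assoc, ← h.d_comm x1 x2 hb hbz]; group
    have e1 := same_K hKi (g := u) (g' := e * g) (by rw [hw, ← hg]; group) hbw
    have hc : e⁻¹ * b * e ∈ centralizer ({g * z * g⁻¹} : Set G) := by
      rw [hw, mem_cen_conj] at hbw; rwa [hg]
    have hbc : b⁻¹ ∈ centralizer ({g * z * g⁻¹} : Set G) :=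
      inv_mem (hg ▸ mem_centralizer_singleton_iff.2 hby)
    refine ⟨mul_mem hbc hc, ?_⟩
    rw [mul_mem_conj_iff hKi hbc hc, ← mem_conj, conj_conj, ← e1, mem_conj (g := u)]
    have e2 := h.sy.conj_eq_or (R.inv_mem hu) hb
    rw [inv_inv] at e2
    have hbK : b⁻¹ ∈ g ⋆ K := inv_mem (hRK hb)
    rcases e2 with e2 | e2 <;> rw [e2]
    · tauto
    · rw [K.mul_mem_cancel_left hyK]; tauto
  obtain ⟨e, he, hey⟩ := h.symm.alpha_d hα' d2 d1 hd
  obtain ⟨e', he', hey'⟩ := h.symm.alpha_d hα' d2' d1' hd'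
  have hed : e * d' * e⁻¹ = z * d' :=
    (h.q.lg.toSy.conj_eq_or he d1').resolve_left fun e1 =>
      hdd (h.symm.cross hα' he d2 d1 hey d2' d1' hd' (mul_inv_eq_iff_eq_mul.1 e1))
  have hey2 : ⁅y, e * e'⁆ = z * (d * d') := by
    rw [commutator_mul', hey, hey', ← mul_assoc e, h.q.lg.toSy.comm he, mul_assoc z e, mul_assoc z _ e⁻¹,
      hed, ← mul_assoc z z, h.zz, one_mul, mul_assoc]
  obtain ⟨k1, k2⟩ := key d d1 d2 hd e he hey
  obtain ⟨k1', k2'⟩ := key d' d1' d2' hd' e' he' hey'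
  obtain ⟨-, k3⟩ := key (d * d') (Q.mul_mem d1 d1') (R.mul_mem d2 d2') (fun e1 => hdd (by
    rw [eq_inv_of_mul_eq_one_right e1, inv_eq_of_mul_eq_one_right (h.d_sq d1 d2)])) _
    (Q.mul_mem he he') hey2
  have hkQ : b⁻¹ * (e⁻¹ * b * e) ∈ Q := by
    have := commutator_mem_of_mem_normalizer (inv_mem (h.normQ hbz)) (Q.inv_mem he)
    simpa [commutatorElement_def, mul_assoc] using this
  rw [show b⁻¹ * ((e * e')⁻¹ * b * (e * e')) =
    b⁻¹ * (e'⁻¹ * b * e') * (e'⁻¹ * (b⁻¹ * (e⁻¹ * b * e)) * e'⁻¹⁻¹) by group] at k3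
  rcases h.q.lg.toSy.conj_eq_or (Q.inv_mem he') hkQ with e1 | e1 <;> rw [e1] at k3
  · rw [mul_mem_conj_iff hKi k1' k1] at k3; tauto
  · rw [mul_mem_conj_iff hKi k1' (mul_mem (hg ▸ mem_centralizer_singleton_iff.2 h.comm) k1),
      (g ⋆ K).mul_mem_cancel_left hzK] at k3
    tauto

theorem main : ∀ b ∈ R, b * z = z * b → b ∈ K := by
  by_cases hA : ∀ a ∈ Q, a * y = y * a → a * a = 1
  swap
  · push Not at hA
    obtain ⟨a, ha, hay, e⟩ := hA
    exact h.nonel_K hn hKi hQK ha hay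
      ((h.q.lg.toSy.mem_iff.1 (sq a ▸ h.q.lg.sq_mem a ha)).resolve_left e)
  by_cases hB : ∀ b ∈ R, b * z = z * b → b * b = 1
  swap
  · push Not at hB
    obtain ⟨b, hb, hbz, e⟩ := hB
    have e' := (h.sy.mem_iff.1 (sq b ▸ h.sy.sq_mem b hb)).resolve_left e
    exact absurd (h.symm.abel_of_el hA) (h.symm.not_abel hn (h.symm.big_of_sq hb hbz e'))
  by_cases hα : ∀ u ∈ R, ⁅z, u⁆ ≠ y
  · exact h.alpha_K hn hKi hQK hB hα fun u hu =>
      h.swap_K hn hKi hQK hu (h.alpha_comm hα (h.cmem hu) (h.cq0 hu)) (hα u hu)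
  push Not at hα
  obtain ⟨e, he, hez⟩ := hα
  have hab := h.abel_of_el hB
  have k1 : ∀ x ∈ R, x * z = z * x → e * x = x * e → x ≠ y → x ∈ K := fun x hx hxz hxe hxy => by
    obtain ⟨u, hu, rfl⟩ := h.beta_dual he hez hx (fun b hb hbz => hab b hb hbz x hx hxz) hxe
    exact h.swap_K hn hKi hQK hu hxz hxy
  have hey : e * y = y * e := h.sy.comm he
  have hyK : y ∈ K := by
    obtain ⟨x, hx, hxz, hxe, hx1⟩ : ∃ x ∈ R, x * z = z * x ∧ e * x = x * e ∧ x ∉ zpowers y := by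
      by_contra hh
      push Not at hh
      haveI : Fact (Nat.Prime 2) := ⟨Nat.prime_two⟩
      have hle : R ⊓ centralizer {z} ⊔ zpowers e ≤ R := sup_le inf_le_left (zpowers_le_of_mem he)
      have hyB : y ∈ R ⊓ centralizer {z} := ⟨h.sy.mem, mem_centralizer_singleton_iff.2 h.comm.symm⟩
      have c1 := h.r.card_mul hle (mem_sup_left hyB)
      have hq0 : ∀ v ∈ R, ⁅z, v⁆ ∈ zpowers y → v ∈ R ⊓ centralizer {z} ∨
          v * e ∈ R ⊓ centralizer {z} := fun v hv hc => by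
        rcases h.sy.mem_iff.1 hc with e1 | e1
        · exact Or.inl ⟨hv, mem_centralizer_singleton_iff.2
            (commutatorElement_eq_one_iff_mul_comm.1 e1).symm⟩
        · refine Or.inr ⟨R.mul_mem hv he, mem_centralizer_singleton_iff.2
            (commutatorElement_eq_one_iff_mul_comm.1 ?_).symm⟩
          rw [commutator_mul', e1, hez, h.sy.comm hv, mul_inv_cancel_right, h.yy]
      let Q0 : Subgroup G :=
        { carrier := {v | v ∈ R ∧ ⁅z, v⁆ ∈ zpowers y}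
          one_mem' := ⟨one_mem _, by simp⟩
          mul_mem' := fun {a b} ha hb => ⟨R.mul_mem ha.1 hb.1, by
            rw [commutator_mul', h.sy.zpowers_le_centralizer hb.2 a ha.1, mul_inv_cancel_right]
            exact mul_mem ha.2 hb.2⟩
          inv_mem' := fun {a} ha => ⟨R.inv_mem ha.1, by
            rw [show ⁅z, a⁻¹⁆ = a⁻¹ * ⁅z, a⁆⁻¹ * a⁻¹⁻¹ by simp only [commutatorElement_def]; group,
              h.sy.zpowers_le_centralizer (inv_mem ha.2) _ (R.inv_mem ha.1), mul_inv_cancel_right]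
            exact inv_mem ha.2⟩ }
      have c2 : Nat.card Q0 ≤ 2 * Nat.card ↥(R ⊓ centralizer {z}) :=
        card_le_two_mul (u := e) fun v hv => hq0 v hv.1 hv.2
      have c3 := h.r.card_mul (X := Q0) (fun v hv => hv.1) ⟨h.sy.mem, by
        rw [commutatorElement_eq_one_iff_mul_comm.2 h.comm]; exact one_mem _⟩
      have c4 : Nat.card ↥(R ⊓ centralizer (Q0 : Set G)) ≤ Nat.card Q0 := card_le_of_le fun x hx => by
        obtain ⟨u, hu, e1⟩ := h.beta_dual he hez hx.1 (fun b hb hbz => hx.2 b ⟨hb, by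
          rw [commutatorElement_eq_one_iff_mul_comm.2 hbz.symm]; exact one_mem _⟩)
          (hx.2 e ⟨he, hez ▸ mem_zpowers y⟩)
        exact ⟨hx.1, e1 ▸ h.cq0 hu⟩
      have c5 := h.sy.card_le_two_mul (X := R ⊓ centralizer {z}) inf_le_left he
      have c6 : Nat.card ↥(R ⊓ centralizer {z} ⊓ centralizer {e}) ≤ 2 := by
        rw [← h.sy.card_zpowers]
        exact card_le_of_le fun x hx => hh x hx.1.1 (mem_centralizer_singleton_iff.1 hx.1.2)
          (mem_centralizer_singleton_iff.1 hx.2).symm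
      have h2 : 2 ^ 7 ≤ Nat.card R := h.r.card ▸ Nat.pow_le_pow_right (by norm_num) (by omega)
      nlinarith
    have m1 := k1 x hx hxz hxe fun e1 => hx1 (e1 ▸ mem_zpowers y)
    have m2 := k1 (x * y) (R.mul_mem hx h.sy.mem)
      (by rw [mul_assoc, ← h.comm, ← mul_assoc, hxz, mul_assoc])
      (by rw [← mul_assoc, hxe, mul_assoc, hey, mul_assoc])
      fun e1 => hx1 (by rw [mul_eq_right.1 e1]; exact one_mem _)
    exact (K.mul_mem_cancel_left m1).1 m2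
  have k2 : ∀ x ∈ R, x * z = z * x → e * x = x * e → x ∈ K := fun x hx hxz hxe => by
    by_cases hxy : x = y
    · exact hxy ▸ hyK
    · exact k1 x hx hxz hxe hxy
  intro b hb hbz
  refine (em (e * b = b * e)).elim (k2 b hb hbz) fun hbe => ?_
  by_cases hD : ∀ d ∈ Q, d ∈ R → d = 1
  swap
  · push Not at hD
    obtain ⟨d, d1, d2, hd⟩ := hD
    have := k2 (b * d) (R.mul_mem hb d2)
      (by rw [mul_assoc, h.q.lg.toSy.comm d1, ← mul_assoc, hbz, mul_assoc])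
      ((cm_mul h.sy hb d2 he).2 (iff_of_false (fun e1 => hbe e1.symm)
        fun e1 => hd (h.beta_d he hez d1 d2 e1.symm))).symm
    exact (K.mul_mem_cancel_right (hQK d1)).1 this
  exfalso
  have hD' : ∀ d ∈ Q, d ∈ R → e * d = d * e := fun d d1 d2 => by rw [hD d d1 d2]; simp
  have hw : e * z * e⁻¹ = z * y := by rw [h.uconj', hez]
  have hA' : ∀ a ∈ Q, a * y = y * a → ⁅a, e⁆ * z = z * ⁅a, e⁆ := fun a ha hay =>
    h.comm_of_conj (h.q.lg.toSy.comm ha) (h.sq_comm h.comm he).symm (by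
      rw [hw, ← mul_assoc, h.q.lg.toSy.comm ha, mul_assoc, hay, mul_assoc])
  by_cases hα' : ∀ u ∈ Q, ⁅y, u⁆ ≠ z
  swap
  · push Not at hα'
    obtain ⟨v, hv, hvy⟩ := hα'
    have := h.tri he hv (by rw [hw, h.symm.uconj', hvy, h.comm]) hA' hD' hb hbz
    rw [inv_eq_of_mul_eq_one_right (hB b hb hbz), mul_inv_eq_iff_eq_mul] at this
    exact hbe this
  have hc : ⁅z, e⁆ * z = z * ⁅z, e⁆ := by rw [hez, h.comm]
  have h1 : ⁅z, e⁆ ≠ 1 := hez ▸ h.sy.ne_one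
  have hs := h.swap hc h1
  have hA2 : ∀ a ∈ Q, a * (e * z * e⁻¹) = e * z * e⁻¹ * a → a * a = 1 := fun a ha haw => by
    rw [hw, ← mul_assoc, h.q.lg.toSy.comm ha, mul_assoc, mul_assoc, mul_right_inj] at haw
    exact hA a ha haw
  have hα2 : ∀ v ∈ Q, ⁅e * z * e⁻¹, v⁆ ≠ z := fun v hv e1 => hα' v hv (by
    have hzv := h.q.lg.toSy.comm hv
    have hzc := h.q.lg.toSy.comm (h.symm.cmem hv)
    calc ⁅y, v⁆ = z⁻¹ * (z * ⁅y, v⁆ * z⁻¹ * ⁅z, v⁆) * z := by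
          rw [commutatorElement_eq_one_iff_mul_comm.2 hzv.symm]; group
      _ = z⁻¹ * ⁅z * y, v⁆ * z := by simp only [commutatorElement_def]; group
      _ = z := by rw [← hw, e1]; group)
  have hα3 : ∀ v ∈ e ⋆ Q, ⁅z, v⁆ ≠ e * z * e⁻¹ := by
    rintro _ ⟨v, hv, rfl⟩ e1
    change ⁅z, e * v * e⁻¹⁆ = _ at e1
    refine hα2 v hv ?_
    have hee : e * e * z = z * (e * e) := (h.sq_comm h.comm he).symm
    calc ⁅e * z * e⁻¹, v⁆ = e⁻¹ * ⁅e * e * z * (e * e)⁻¹, e * v * e⁻¹⁆ * e := by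
          simp only [commutatorElement_def]; group
      _ = z := by rw [hee, mul_inv_cancel_right, e1]; group
  have c0 : Q ⊓ e ⋆ Q = ⊥ := eq_bot_iff.2 fun x hx =>
    hs.ea_bot hn hA2 ((h.swap_el he).1 hA2) hα3 hα2 hx.1 hx.2
  have c1 := h.count_el hB he hA' hD'
  rw [c0, card_bot, one_mul] at c1
  have c2 := h.symm.card_el hA hα'
  have c3 := h.r.card_abel (X := R ⊓ centralizer {z}) inf_le_left
    ⟨h.sy.mem, mem_centralizer_singleton_iff.2 h.comm.symm⟩ fun a ha b hb =>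
      hab a ha.1 (mem_centralizer_singleton_iff.1 ha.2) b hb.1 (mem_centralizer_singleton_iff.1 hb.2)
  rw [h.r.card, ← h.q.card, ← c2, Nat.mul_self_le_mul_self_iff] at c3
  have c4 : Nat.card ↥(R ⊓ centralizer {z} ⊓ centralizer {e}) < Nat.card ↥(R ⊓ centralizer {z}) :=
    card_lt_of_lt (lt_of_le_of_ne inf_le_left fun e1 => hbe (mem_centralizer_singleton_iff.1
      (inf_eq_left.1 e1 ⟨hb, mem_centralizer_singleton_iff.2 hbz⟩)).symm)
  have c5 : 0 < Nat.card ↥(Q ⊓ R) := Nat.card_pos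
  nlinarith

end Pr

end Cfsg.Lib.LXT
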